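import Cfsg.Agent.FPS.Dich

/-! The minimal counterexample: points, lines, cycle type and exceptional pairs. -/

set_option autoImplicit false
set_option linter.unusedSectionVars false

namespace Cfsg.Agent.FPS

open Classical Finset

variable {G : Type*} [Group G] [Fintype G] {Ω : Type*} [MulAction G Ω]

structure Ctx (p : ℕ) (X : Subgroup G) (a0 : Ω) : Prop where
  good : Good p X
  nfx : ¬ Fx X a0
  prim : Prim X a0
  ih : ∀ Z : Subgroup G, Nat.card Z < Nat.card X → HP p Z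
  exQ : ∃ Q : Sylow p G, (Q : Subgroup G) ≤ St X a0
  t2 : ∀ Q : Sylow p G, (Q : Subgroup G) ≤ X → 2 ≤ tt p (Q : Subgroup G) (orb X a0)
  bud : ∀ Q : Sylow p G, (Q : Subgroup G) ≤ X →
    dl p (Q : Subgroup G) (orb X a0) ≤ 2 * p - 3 - (fx (Q : Subgroup G) (orb X a0) % p : ℕ)

def YY (p : ℕ) (X : Subgroup G) (a : Ω) : Subgroup G := Op p (St X a)

def WW (p : ℕ) (X : Subgroup G) (a b : Ω) : Subgroup G := Op p (St (St X a) b)

/-- the class of lines through `a` containing the line `ab` -/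
noncomputable def LL (p : ℕ) (X : Subgroup G) (a b : Ω) : Finset (Subgroup G) :=
  orb (YY p X a) (WW p X a b)

structure Cy (p : ℕ) (X : Subgroup G) (a0 a b : Ω) (φ : ℕ) : Prop where
  ha : a ∈ orb X a0
  hb : b ∈ orb X a0
  ne : b ≠ a
  good : Good p (WW p X a b)
  cs : CS p (YY p X a) (LL p X a b) φ

structure Ex (p : ℕ) (X : Subgroup G) (a0 a b : Ω) : Prop where
  ha : a ∈ orb X a0
  hb : b ∈ orb X a0
  ne : b ≠ a
  ncy : ∀ φ, ¬ Cy p X a0 a b φ

variable {p : ℕ} [hp : Fact p.Prime] {X : Subgroup G} {a0 a b c : Ω} {φ : ℕ}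

theorem le_YY {Q : Sylow p G} :
    (Q : Subgroup G) ≤ YY p X a ↔ (Q : Subgroup G) ≤ X ∧ Fx (Q : Subgroup G) a := by
  rw [YY, le_Op, le_St]

theorem le_WW {Q : Sylow p G} : (Q : Subgroup G) ≤ WW p X a b ↔
    (Q : Subgroup G) ≤ X ∧ Fx (Q : Subgroup G) a ∧ Fx (Q : Subgroup G) b := by
  rw [WW, le_Op, le_St, le_St, and_assoc]

theorem YY_le : YY p X a ≤ X := Op_le.trans St_le
theorem YY_le_St : YY p X a ≤ St X a := Op_le
theorem Fx_YY : Fx (YY p X a) a := Fx_Op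

theorem WW_comm : WW p X a b = WW p X b a := Op_congr fun Q => by
  simp only [le_St]; tauto

theorem WW_eq : WW p X a b = Op p (St (YY p X a) b) := Op_congr fun Q => by
  simp only [le_St, le_YY]

theorem WW_le : WW p X a b ≤ YY p X a := by rw [WW_eq]; exact Op_le.trans St_le
theorem WW_le' : WW p X a b ≤ YY p X b := by rw [WW_comm]; exact WW_le
theorem WW_le_X : WW p X a b ≤ X := WW_le.trans YY_le
theorem Fx_WW : Fx (WW p X a b) b := Fx_Op
theorem Fx_WW' : Fx (WW p X a b) a := Fx_YY.mono WW_le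

theorem good_WW {Q : Sylow p G} (h : (Q : Subgroup G) ≤ WW p X a b) : Good p (WW p X a b) :=
  good_Op (le_Op.1 h)

theorem Good.le_WW {V : Subgroup G} (hV : Good p V) (h : V ≤ X) (ha : Fx V a) (hb : Fx V b) :
    V ≤ WW p X a b := hV.le_Op (le_St.2 ⟨le_St.2 ⟨h, ha⟩, hb⟩)

theorem Good.le_YY {V : Subgroup G} (hV : Good p V) (h : V ≤ X) (ha : Fx V a) :
    V ≤ YY p X a := hV.le_Op (le_St.2 ⟨h, ha⟩)

theorem YY_sm {g : G} (hg : g ∈ X) : g • YY p X a = YY p X (g • a) := Op_St_sm hg a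

theorem WW_sm {g : G} (hg : g ∈ X) : g • WW p X a b = WW p X (g • a) (g • b) := by
  unfold WW; rw [Op_sm, St_sm, St_sm, sm_self hg]

theorem LL_sm {g : G} (hg : g ∈ X) :
    (LL p X a b).image (g • ·) = LL p X (g • a) (g • b) := by
  unfold LL; rw [← orb_sm, YY_sm hg, WW_sm hg]

theorem WW_smY {g : G} (hg : g ∈ St X a) : g • WW p X a b = WW p X a (g • b) := by
  rw [WW_sm (St_le hg), Fx_St g hg]

theorem self_LL : WW p X a b ∈ LL p X a b := self_mem _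

theorem mem_LL {V : Subgroup G} : V ∈ LL p X a b ↔ ∃ g ∈ YY p X a, WW p X a (g • b) = V := by
  unfold LL
  rw [mem_orb]
  exact exists_congr fun g => and_congr_right fun hg => by rw [WW_smY (YY_le_St hg)]

theorem LL_eq (h : WW p X a c ∈ LL p X a b) : LL p X a c = LL p X a b := orb_eq h

theorem LL_le {V : Subgroup G} (h : V ∈ LL p X a b) : V ≤ YY p X a := by
  obtain ⟨g, -, rfl⟩ := mem_LL.1 h; exact WW_le

theorem Cy.sm (h : Cy p X a0 a b φ) {g : G} (hg : g ∈ X) : Cy p X a0 (g • a) (g • b) φ where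
  ha := orb_inv _ g hg _ h.ha
  hb := orb_inv _ g hg _ h.hb
  ne := fun e => h.ne (MulAction.injective g e)
  good := by rw [← WW_sm hg]; exact h.good.sm g
  cs := by rw [← YY_sm hg, ← LL_sm hg]; exact h.cs.sm g

theorem Ex.sm (h : Ex p X a0 a b) {g : G} (hg : g ∈ X) : Ex p X a0 (g • a) (g • b) where
  ha := orb_inv _ g hg _ h.ha
  hb := orb_inv _ g hg _ h.hb
  ne := fun e => h.ne (MulAction.injective g e)
  ncy := fun φ h' => h.ncy φ (by simpa using h'.sm (X.inv_mem hg))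

theorem Cy.goodL (h : Cy p X a0 a b φ) {V : Subgroup G} (hV : V ∈ LL p X a b) : Good p V := by
  obtain ⟨g, -, rfl⟩ := mem_orb.1 hV; exact h.good.sm g

theorem Cy.pos (h : Cy p X a0 a b φ) : 1 ≤ φ := by
  obtain ⟨Q, hQ⟩ := h.good.ex
  rw [← h.cs.fix Q (hQ.trans WW_le)]
  exact fx_pos.2 ⟨_, self_LL, (Fx_iff_le h.good).2 hQ⟩

theorem Cy.of_mem (h : Cy p X a0 a b φ) (hc : c ∈ orb X a0) (hne : c ≠ a)
    (hL : WW p X a c ∈ LL p X a b) : Cy p X a0 a c φ :=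
  ⟨h.ha, hc, hne, h.goodL hL, by rw [LL_eq hL]; exact h.cs⟩

theorem Cy.uniq {φ' : ℕ} (h : Cy p X a0 a b φ) (h' : Cy p X a0 a b φ') : φ = φ' := by
  have := h.cs.card; have := h'.cs.card; omega

theorem Cy.OpSt (h : Cy p X a0 a b φ) {V : Subgroup G} (hV : V ∈ LL p X a b) :
    Op p (St (YY p X a) V) = V := Op_St_self (h.goodL hV) (LL_le hV)

/-- lines of cycle type are maximal among the good subgroups of `Y a` -/
theorem Cy.max (h : Cy p X a0 a b φ) {U V : Subgroup G} (hU : U ∈ LL p X a b) (hV : Good p V)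
    (h1 : U ≤ V) (h2 : V ≤ YY p X a) : V = U ∨ V = YY p X a := by
  have := h.cs.max h.pos hU hV (by rw [h.OpSt hU]; exact h1) h2
  rwa [h.OpSt hU] at this

theorem Cy.erase (h : Cy p X a0 a b φ) {U : Subgroup G} (hU : U ∈ LL p X a b) :
    CS p U ((LL p X a b).erase U) (φ - 1) := by
  have := h.cs.one' h.pos hU
  rwa [h.OpSt hU] at this

theorem Ctx.exQ' (H : Ctx p X a0) (ha : a ∈ orb X a0) :
    ∃ Q : Sylow p G, (Q : Subgroup G) ≤ YY p X a := by
  obtain ⟨Q, hQ⟩ := H.exQ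
  obtain ⟨g, hg, rfl⟩ := mem_orb.1 ha
  exact ⟨g • Q, by rw [← YY_sm hg, coe_sm]; exact sm_mono (le_Op.2 hQ)⟩

theorem Ctx.goodY (H : Ctx p X a0) (ha : a ∈ orb X a0) : Good p (YY p X a) := by
  obtain ⟨Q, hQ⟩ := H.exQ' ha
  exact good_Op (le_Op.1 hQ)

theorem Ctx.hp_le (H : Ctx p X a0) (ha : a ∈ orb X a0) {V : Subgroup G} (h : V ≤ YY p X a) :
    HP p V := H.ih V (card_lt (h.trans YY_le) fun e =>
      not_fx_orb H.nfx ha (by rw [← e]; exact Fx_YY.mono h))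

theorem Ctx.fixY (H : Ctx p X a0) (ha : a ∈ orb X a0) (hb : b ∈ orb X a0) (hne : b ≠ a) :
    ¬ Fx (YY p X a) b := by
  intro hf
  obtain ⟨g, hg, rfl⟩ := mem_orb.1 ha
  have h1 : Fx (YY p X a0) (g⁻¹ • b) := by
    rw [← Fx_sm g, YY_sm hg, smul_inv_smul]; exact hf
  have h2 : g⁻¹ • b ∈ orb X a0 := orb_inv _ _ (X.inv_mem hg) _ hb
  have h3 := conn H.prim (fun x y => YY p X x = YY p X y)
    (fun k hk x y e => by rw [← YY_sm hk, ← YY_sm hk, e]) h2
    (fun e => hne (by rw [← e, smul_inv_smul])) (Op_St_eq h2 h1)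
    {x | YY p X x = YY p X a0} (fun x hx y e => Eq.trans (Eq.symm e) hx) (self_mem a0) rfl
  obtain ⟨Q, hQ⟩ := H.exQ
  obtain ⟨y, hy, hm⟩ := H.good.moved H.nfx (hQ.trans St_le)
  have h4 : YY p X y = YY p X a0 := h3 y hy
  exact hm (Fx_YY.mono (by rw [h4]; exact le_Op.2 hQ))

theorem Cy.line (h : Cy p X a0 a b φ) (H : Ctx p X a0) (hc : c ∈ orb X a0) (hne : c ≠ a)
    (hf : Fx (WW p X a b) c) : WW p X a c = WW p X a b := by
  have h1 := h.good.le_WW WW_le_X Fx_WW' hf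
  obtain ⟨Q, hQ⟩ := h.good.ex
  refine (h.max self_LL (good_WW (hQ.trans h1)) h1 WW_le).resolve_right fun e => ?_
  exact H.fixY h.ha hc hne (by rw [← e]; exact Fx_WW)

theorem erase_inv : Inv (St X a) ((orb X a0).erase a) := ((orb_inv a0).mono St_le).erase Fx_St

theorem dl_erase {Q : Sylow p G} {C : Finset Ω} (hC : Inv (Q : Subgroup G) C) (ha : a ∈ C)
    (hf : Fx (Q : Subgroup G) a) :
    tt p (Q : Subgroup G) (C.erase a) = tt p (Q : Subgroup G) C ∧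
    dl p (Q : Subgroup G) (C.erase a) = dl p (Q : Subgroup G) C + 1 := by
  have h1 := fx_erase ha hf
  have h2 : tt p (Q : Subgroup G) (C.erase a) = tt p (Q : Subgroup G) C := by
    apply tt_eq
    have := card_eq hC
    have := card_erase_add_one ha
    omega
  refine ⟨h2, ?_⟩
  unfold dl
  rw [h2, h1]; push_cast; ring

theorem Ctx.rpos (H : Ctx p X a0) (ha : a ∈ orb X a0) {Q : Sylow p G}
    (hQ : (Q : Subgroup G) ≤ YY p X a) : 1 ≤ fx (Q : Subgroup G) (orb X a0) % p := by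
  rw [le_YY] at hQ
  have h1 := not_dvd_orb hQ.1 hQ.2
  rw [orb_eq ha, card_eq ((orb_inv a0).mono hQ.1)] at h1
  by_contra h0
  exact h1 (dvd_add (Nat.dvd_of_mod_eq_zero (by omega)) (dvd_mul_right _ _))

theorem Ctx.bud' (H : Ctx p X a0) (ha : a ∈ orb X a0) {Q : Sylow p G}
    (hQ : (Q : Subgroup G) ≤ YY p X a) {C : Finset Ω} (hC : Inv (YY p X a) C)
    (hs : C ⊆ (orb X a0).erase a) :
    dl p (Q : Subgroup G) C ≤ 2 * p - 2 - (fx (Q : Subgroup G) (orb X a0) % p : ℕ) := by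
  have h1 := dl_le_of_sub (H.goodY ha) (H.hp_le ha le_rfl) hQ (erase_inv.mono YY_le_St) hC hs
    fun x hx => H.fixY ha (mem_erase.1 hx).2 (mem_erase.1 hx).1
  have h2 := (dl_erase ((orb_inv a0).mono (le_YY.1 hQ).1) ha (le_YY.1 hQ).2).2
  have h3 := H.bud Q (le_YY.1 hQ).1
  omega

theorem Ctx.bud3 (H : Ctx p X a0) (ha : a ∈ orb X a0) {Q : Sylow p G}
    (hQ : (Q : Subgroup G) ≤ YY p X a) {C : Finset Ω} (hC : Inv (YY p X a) C)
    (hs : C ⊆ (orb X a0).erase a) : dl p (Q : Subgroup G) C ≤ 2 * p - 3 := by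
  have := H.bud' ha hQ hC hs
  have := H.rpos ha hQ
  omega

theorem orbY_sub (hb : b ∈ orb X a0) (hne : b ≠ a) :
    orb (YY p X a) b ⊆ (orb X a0).erase a :=
  orb_sub (erase_inv.mono YY_le_St) (mem_erase.2 ⟨hne, hb⟩)

theorem Ex.smY (h : Ex p X a0 a b) {g : G} (hg : g ∈ St X a) : Ex p X a0 a (g • b) := by
  have := h.sm (St_le hg)
  rwa [Fx_St g hg] at this

theorem Ex.of_orb (h : Ex p X a0 a b) (hc : c ∈ orb (YY p X a) b) : Ex p X a0 a c := by
  obtain ⟨g, hg, rfl⟩ := mem_orb.1 hc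
  exact h.smY (YY_le_St hg)

theorem Ex.fixed (h : Ex p X a0 a b) (H : Ctx p X a0) {Q : Sylow p G}
    (hQ : (Q : Subgroup G) ≤ WW p X a b) :
    Prim (YY p X a) b ∧ 2 ≤ tt p (Q : Subgroup G) (orb (YY p X a) b) ∧
      2 * (p : ℤ) - 2 - (fx (Q : Subgroup G) (orb (YY p X a) b) % p : ℕ) ≤
        dl p (Q : Subgroup G) (orb (YY p X a) b) := by
  have hQY := hQ.trans WW_le
  rcases (dich (H.goodY h.ha) (H.hp_le h.ha le_rfl) (H.fixY h.ha h.hb h.ne)
    (le_St.2 ⟨hQY, Fx_WW.mono hQ⟩)).2 with h1 | ⟨φ, h1⟩ | h1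
  · have := H.bud3 h.ha hQY (orb_inv b) (orbY_sub h.hb h.ne)
    omega
  · exact absurd ⟨h.ha, h.hb, h.ne, good_WW hQ, by rw [← WW_eq] at h1; exact h1⟩ (h.ncy φ)
  · exact h1

theorem Ex.dl_ge (h : Ex p X a0 a b) (H : Ctx p X a0) {Q : Sylow p G}
    (hQ : (Q : Subgroup G) ≤ YY p X a) :
    (p : ℤ) - 1 ≤ dl p (Q : Subgroup G) (orb (YY p X a) b) := by
  rcases Nat.eq_zero_or_pos (fx (Q : Subgroup G) (orb (YY p X a) b)) with h0 | h0
  · exact dl_nofix (H.goodY h.ha) (H.fixY h.ha h.hb h.ne) hQ h0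
  · obtain ⟨y, hy, hf⟩ := fx_pos.1 h0
    have h1 := ((h.of_orb hy).fixed H (le_WW.2 ⟨(le_YY.1 hQ).1, (le_YY.1 hQ).2, hf⟩)).2.2
    rw [orb_eq hy] at h1
    have := Nat.mod_lt (fx (Q : Subgroup G) (orb (YY p X a) b)) hp.out.pos
    omega

theorem Ctx.two_big (H : Ctx p X a0) (ha : a ∈ orb X a0) {Q : Sylow p G}
    (hQ : (Q : Subgroup G) ≤ YY p X a) {C D : Finset Ω} (hC : Inv (YY p X a) C)
    (hD : Inv (YY p X a) D) (hs : C ⊆ (orb X a0).erase a) (hs' : D ⊆ (orb X a0).erase a)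
    (h1 : (p : ℤ) - 1 ≤ dl p (Q : Subgroup G) C) (h2 : (p : ℤ) - 1 ≤ dl p (Q : Subgroup G) D) :
    ¬ Disjoint C D := by
  intro hd
  have h3 := H.bud3 ha hQ (hC.union hD) (union_subset hs hs')
  rw [dl_split ((hC.union hD).mono hQ) (hD.mono hQ) subset_union_right,
    union_sdiff_cancel_right hd] at h3
  omega

theorem Ex.uniq (h : Ex p X a0 a b) (H : Ctx p X a0) (h' : Ex p X a0 a c) :
    c ∈ orb (YY p X a) b := by
  obtain ⟨Q, hQ⟩ := H.exQ' h.ha
  have := H.two_big h.ha hQ (orb_inv b) (orb_inv c) (orbY_sub h.hb h.ne) (orbY_sub h'.hb h'.ne)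
    (h.dl_ge H hQ) (h'.dl_ge H hQ)
  obtain ⟨z, hz, hz'⟩ := not_disjoint_iff.1 this
  rw [← orb_eq hz]; exact orb_symm hz'

theorem fam_image (R : Ω → Ω → Prop) (hR : ∀ g ∈ X, ∀ x y, R x y → R (g • x) (g • y)) {g : G}
    (hg : g ∈ X) (x : Ω) :
    ((orb X a0).filter (R x)).image (g • ·) = (orb X a0).filter (R (g • x)) := by
  ext y
  rw [mem_image, mem_filter]
  constructor
  · rintro ⟨z, hz, rfl⟩
    rw [mem_filter] at hz
    exact ⟨orb_inv _ g hg _ hz.1, hR g hg _ _ hz.2⟩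
  · intro hy
    refine ⟨g⁻¹ • y, mem_filter.2 ⟨orb_inv _ _ (X.inv_mem hg) _ hy.1, ?_⟩, smul_inv_smul _ _⟩
    simpa using hR _ (X.inv_mem hg) _ _ hy.2

theorem fam_inv (R : Ω → Ω → Prop) (hR : ∀ g ∈ X, ∀ x y, R x y → R (g • x) (g • y)) (x : Ω) :
    Inv (St X x) ((orb X a0).filter (R x)) := by
  intro g hg y hy
  have := mem_image_of_mem (g • ·) hy
  rwa [fam_image R hR (St_le hg), Fx_St g hg] at this

theorem fam_card (R : Ω → Ω → Prop) (hR : ∀ g ∈ X, ∀ x y, R x y → R (g • x) (g • y)) {x y : Ω}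
    (hx : x ∈ orb X a0) (hy : y ∈ orb X a0) :
    ((orb X a0).filter (R y)).card = ((orb X a0).filter (R x)).card := by
  obtain ⟨g, hg, rfl⟩ := orb_tr hx hy
  rw [← fam_image R hR hg, card_image_of_injective _ (MulAction.injective g)]

theorem fam_fx (R : Ω → Ω → Prop) (hR : ∀ g ∈ X, ∀ x y, R x y → R (g • x) (g • y)) {x y : Ω}
    (hx : x ∈ orb X a0) (hy : y ∈ orb X a0) {Q : Sylow p G} (h1 : (Q : Subgroup G) ≤ St X x)
    (h2 : (Q : Subgroup G) ≤ St X y) :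
    fx (Q : Subgroup G) ((orb X a0).filter (R y)) = fx (Q : Subgroup G) ((orb X a0).filter (R x)) := by
  obtain ⟨g, hg, rfl⟩ := orb_tr hx hy
  rw [fx_eq (fam_inv R hR _) h2 (Q' := g • Q)
    (by have := sm_mono (g := g) h1
        rw [St_sm, sm_self hg] at this
        rw [coe_sm]; exact this),
    ← fam_image R hR hg, coe_sm, fx_image]

theorem fam_dual (R : Ω → Ω → Prop) (hR : ∀ g ∈ X, ∀ x y, R x y → R (g • x) (g • y))
    (ha : a ∈ orb X a0) {Q : Sylow p G} (hQ : (Q : Subgroup G) ≤ St X a) :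
    ((orb X a0).filter (fun y => R y a)).card = ((orb X a0).filter (R a)).card ∧
    fx (Q : Subgroup G) ((orb X a0).filter (fun y => R y a)) =
      fx (Q : Subgroup G) ((orb X a0).filter (R a)) := by
  have hR' : ∀ g ∈ X, ∀ x y, (fun x y => R y x) x y → (fun x y => R y x) (g • x) (g • y) :=
    fun g hg x y h => hR g hg y x h
  constructor
  · have h1 := sum_card_bipartiteAbove_eq_sum_card_bipartiteBelow (s := orb X a0) (t := orb X a0) R
    have e1 : ∑ x ∈ orb X a0, (bipartiteAbove R (orb X a0) x).card =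
        ∑ x ∈ orb X a0, ((orb X a0).filter (R a)).card :=
      sum_congr rfl fun x hx => fam_card R hR ha hx
    have e2 : ∑ x ∈ orb X a0, (bipartiteBelow R (orb X a0) x).card =
        ∑ x ∈ orb X a0, ((orb X a0).filter (fun y => R y a)).card :=
      sum_congr rfl fun x hx => fam_card _ hR' ha hx
    rw [e1, e2, sum_const, sum_const, smul_eq_mul, smul_eq_mul] at h1
    exact (Nat.eq_of_mul_eq_mul_left (card_pos.2 ⟨a, ha⟩) h1).symm
  · have h1 := sum_card_bipartiteAbove_eq_sum_card_bipartiteBelow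
      (s := (orb X a0).filter (Fx (Q : Subgroup G))) (t := (orb X a0).filter (Fx (Q : Subgroup G))) R
    have e1 : ∑ x ∈ (orb X a0).filter (Fx (Q : Subgroup G)),
        (bipartiteAbove R ((orb X a0).filter (Fx (Q : Subgroup G))) x).card =
        ∑ x ∈ (orb X a0).filter (Fx (Q : Subgroup G)),
          fx (Q : Subgroup G) ((orb X a0).filter (R a)) := by
      refine sum_congr rfl fun x hx => ?_
      rw [mem_filter] at hx
      rw [← fam_fx _ hR ha hx.1 hQ (le_St.2 ⟨hQ.trans St_le, hx.2⟩), bipartiteAbove, filter_comm]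
      rfl
    have e2 : ∑ x ∈ (orb X a0).filter (Fx (Q : Subgroup G)),
        (bipartiteBelow R ((orb X a0).filter (Fx (Q : Subgroup G))) x).card =
        ∑ x ∈ (orb X a0).filter (Fx (Q : Subgroup G)),
          fx (Q : Subgroup G) ((orb X a0).filter (fun y => R y a)) := by
      refine sum_congr rfl fun x hx => ?_
      rw [mem_filter] at hx
      rw [← fam_fx _ hR' ha hx.1 hQ (le_St.2 ⟨hQ.trans St_le, hx.2⟩), bipartiteBelow, filter_comm]
      rfl
    rw [e1, e2, sum_const, sum_const, smul_eq_mul, smul_eq_mul] at h1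
    exact (Nat.eq_of_mul_eq_mul_left
      (card_pos.2 ⟨a, mem_filter.2 ⟨ha, Fx_St.mono hQ⟩⟩) h1).symm

theorem Ex.filter_eq (h : Ex p X a0 a b) (H : Ctx p X a0) :
    (orb X a0).filter (Ex p X a0 a) = orb (YY p X a) b := by
  ext c
  rw [mem_filter]
  exact ⟨fun hc => h.uniq H hc.2, fun hc => ⟨(h.of_orb hc).hb, h.of_orb hc⟩⟩

theorem Ex.symm (h : Ex p X a0 b a) (H : Ctx p X a0) : Ex p X a0 a b := by
  have hR : ∀ g ∈ X, ∀ x y, Ex p X a0 x y → Ex p X a0 (g • x) (g • y) := fun g hg x y h => h.sm hg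
  have hR' : ∀ g ∈ X, ∀ x y, (fun x y => Ex p X a0 y x) x y →
      (fun x y => Ex p X a0 y x) (g • x) (g • y) := fun g hg x y h => h.sm hg
  obtain ⟨Q, hQ⟩ := H.exQ' h.hb
  obtain ⟨h1, h2⟩ := fam_dual _ hR h.hb (hQ.trans YY_le_St)
  have hb : b ∈ (orb X a0).filter (fun y => Ex p X a0 y a) := mem_filter.2 ⟨h.ha, h⟩
  obtain ⟨c, hc⟩ : ((orb X a0).filter (Ex p X a0 a)).Nonempty :=
    card_pos.1 (by rw [← h1]; exact card_pos.2 ⟨b, hb⟩)
  have hc' := (mem_filter.1 hc).2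
  rw [hc'.filter_eq H] at h1 h2
  have hi : Inv (YY p X a) ((orb X a0).filter (fun y => Ex p X a0 y a)) :=
    (fam_inv _ hR' a).mono YY_le_St
  have h3 := hc'.dl_ge H hQ
  have h4 := H.two_big h.hb hQ (orb_inv c) hi (orbY_sub hc'.hb hc'.ne)
    (fun y hy => mem_erase.2 ⟨(mem_filter.1 hy).2.ne.symm, (mem_filter.1 hy).1⟩) h3
    (by unfold dl tt at h3 ⊢; rw [h1, h2]; exact h3)
  obtain ⟨z, hz, hz'⟩ := not_disjoint_iff.1 h4
  have h5 := eq_of_subset_of_card_le (orb_sub hi hz') (by rw [orb_eq hz, h1])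
  rw [← h5, orb_eq hz] at hb
  exact hc'.of_orb hb

theorem cy_or_ex (ha : a ∈ orb X a0) (hb : b ∈ orb X a0) (hne : b ≠ a) :
    (∃ φ, Cy p X a0 a b φ) ∨ Ex p X a0 a b := by
  by_cases h : ∃ φ, Cy p X a0 a b φ
  · exact Or.inl h
  · exact Or.inr ⟨ha, hb, hne, fun φ h' => h ⟨φ, h'⟩⟩

theorem Cy.nu_eq (h : Cy p X a0 a b φ) :
    φ * nu p (YY p X a) = (p + φ) * nu p (WW p X a b) := by
  obtain ⟨Q, hQ⟩ := h.good.ex
  have h1 := bridge (WW p X a b) (hQ.trans WW_le)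
  change fx _ (LL p X a b) * _ = (LL p X a b).card * _ at h1
  rw [h.cs.fix Q (hQ.trans WW_le), h.cs.card] at h1
  rw [h1]
  congr 1
  refine nu_congr fun Q' => ?_
  rw [le_St, Fx_iff_le h.good]
  exact ⟨fun h' => h'.2, fun h' => ⟨h'.trans WW_le, h'⟩⟩

theorem Cy.symm (h : Cy p X a0 a b φ) (H : Ctx p X a0) : Cy p X a0 b a φ := by
  rcases cy_or_ex (p := p) h.hb h.ha h.ne.symm with ⟨φ', h'⟩ | h'
  · have h1 := h.nu_eq
    have h2 := h'.nu_eq
    obtain ⟨g, hg, e⟩ := orb_tr h.ha h.hb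
    have h3 : nu p (YY p X b) = nu p (YY p X a) := by rw [← e, ← YY_sm hg, nu_sm]
    rw [h3, WW_comm] at h2
    obtain ⟨Q, hQ⟩ := h.good.ex
    have h4 := nu_pos hQ
    have h5 := hp.out.pos
    have h6 : nu p (WW p X a b) * (p * φ) = nu p (WW p X a b) * (p * φ') := by
      have e1 : φ' * (φ * nu p (YY p X a)) = φ * (φ' * nu p (YY p X a)) := by ring
      rw [h1, h2] at e1
      nlinarith
    rw [Nat.eq_of_mul_eq_mul_left h5 (Nat.eq_of_mul_eq_mul_left h4 h6)]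
    exact h'
  · exact absurd h ((h'.symm H).ncy φ)

theorem Ctx.ex_cy (H : Ctx p X a0) : ∃ b φ, Cy p X a0 a0 b φ := by
  by_contra hcon
  push Not at hcon
  have ha := self_mem (Z := X) a0
  obtain ⟨Q, hQ⟩ := H.exQ' ha
  have hQ' := le_YY.1 hQ
  obtain ⟨b, hb, hm⟩ := H.good.moved H.nfx hQ'.1
  have hne : b ≠ a0 := fun e => hm (e ▸ hQ'.2)
  have hE : Ex p X a0 a0 b := ⟨ha, hb, hne, hcon b⟩
  have e : orb (YY p X a0) b = (orb X a0).erase a0 :=
    Subset.antisymm (orbY_sub hb hne) fun c hc =>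
      hE.uniq H ⟨ha, (mem_erase.1 hc).2, (mem_erase.1 hc).1, hcon c⟩
  have h1 := H.bud' ha hQ (orb_inv b) (orbY_sub hb hne)
  have h2 := H.rpos ha hQ
  have h3 := fx_erase ha hQ'.2
  have h4 := (dl_erase ((orb_inv a0).mono hQ'.1) ha hQ'.2).1
  have h5 := H.t2 Q hQ'.1
  rw [← e] at h3 h4
  have hp2 : (2 : ℤ) ≤ p := by exact_mod_cast hp.out.two_le
  rcases Nat.eq_zero_or_pos (fx (Q : Subgroup G) (orb (YY p X a0) b)) with h0 | h0
  · unfold dl at h1
    rw [h4, h0] at h1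
    have : (2 : ℤ) ≤ tt p (Q : Subgroup G) (orb X a0) := by exact_mod_cast h5
    have : (1 : ℤ) ≤ (fx (Q : Subgroup G) (orb X a0) % p : ℕ) := by exact_mod_cast h2
    push_cast at *
    nlinarith
  · obtain ⟨y, hy, hf⟩ := fx_pos.1 h0
    have h6 := ((hE.of_orb hy).fixed H (le_WW.2 ⟨hQ'.1, hQ'.2, hf⟩)).2.2
    rw [orb_eq hy] at h6
    have h7 : fx (Q : Subgroup G) (orb X a0) % p =
        fx (Q : Subgroup G) (orb (YY p X a0) b) % p + 1 := by
      rw [h3] at h2 ⊢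
      have h8 := Nat.mod_lt (fx (Q : Subgroup G) (orb (YY p X a0) b)) hp.out.pos
      rw [Nat.add_mod, Nat.mod_eq_of_lt hp.out.one_lt] at h2 ⊢
      rcases Nat.lt_or_ge (fx (Q : Subgroup G) (orb (YY p X a0) b) % p + 1) p with h9 | h9
      · exact Nat.mod_eq_of_lt h9
      · rw [show fx (Q : Subgroup G) (orb (YY p X a0) b) % p + 1 = p by omega, Nat.mod_self] at h2
        omega
    omega

end Cfsg.Agent.FPS
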