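import Cfsg.Agent.FPS.Bas

/-! Cycle sets: orbits on which the Sylow subgroups move exactly `p` points. -/

set_option autoImplicit false
set_option linter.unusedSectionVars false

namespace Cfsg.Agent.FPS

open Classical Finset

variable {G : Type*} [Group G] [Fintype G] {Ω : Type*} [MulAction G Ω]

structure CS (p : ℕ) (Z : Subgroup G) (A : Finset Ω) (φ : ℕ) : Prop where
  good : Good p Z
  inv : Inv Z A
  tr : ∀ x ∈ A, ∀ y ∈ A, ∃ g ∈ Z, g • x = y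
  card : A.card = p + φ
  fix : ∀ Q : Sylow p G, (Q : Subgroup G) ≤ Z → fx (Q : Subgroup G) A = φ

variable {p : ℕ} [hp : Fact p.Prime] {Z V : Subgroup G} {A : Finset Ω} {φ : ℕ}

theorem CS.orb_eq (h : CS p Z A φ) {x : Ω} (hx : x ∈ A) : orb Z x = A :=
  Subset.antisymm (orb_sub h.inv hx) fun y hy => mem_orb.2 (h.tr x hx y hy)

theorem CS.of_orb (hZ : Good p Z) {Q : Sylow p G} (hQ : (Q : Subgroup G) ≤ Z) {x : Ω}
    (ht : tt p (Q : Subgroup G) (orb Z x) = 1) : CS p Z (orb Z x) (fx (Q : Subgroup G) (orb Z x)) where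
  good := hZ
  inv := orb_inv x
  tr := fun _ hy _ hz => orb_tr hy hz
  card := by rw [card_eq ((orb_inv x).mono hQ), ht]; ring
  fix := fun _ h => fx_eq (orb_inv x) h hQ

theorem CS.tt (h : CS p Z A φ) {Q : Sylow p G} (hQ : (Q : Subgroup G) ≤ Z) :
    tt p (Q : Subgroup G) A = 1 := tt_eq (by rw [h.card, h.fix Q hQ]; ring)

theorem CS.sm (h : CS p Z A φ) (g : G) : CS p (g • Z) (A.image (g • ·)) φ where
  good := h.good.sm g
  inv := by
    intro k hk x hx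
    obtain ⟨y, hy, rfl⟩ := mem_image.1 hx
    exact mem_image.2 ⟨_, h.inv _ (mem_sm.1 hk) y hy, by simp [mul_smul]⟩
  tr := by
    intro x hx y hy
    obtain ⟨x', hx', rfl⟩ := mem_image.1 hx
    obtain ⟨y', hy', rfl⟩ := mem_image.1 hy
    obtain ⟨k, hk, rfl⟩ := h.tr x' hx' y' hy'
    exact ⟨_, sm_mem hk, by simp [mul_smul]⟩
  card := by rw [card_image_of_injective _ (MulAction.injective g), h.card]
  fix := by
    intro Q hQ
    have := h.fix (g⁻¹ • Q) (by rw [coe_sm]; exact le_sm_iff.1 hQ)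
    rw [← fx_image g, coe_sm, smul_inv_smul] at this
    exact this

theorem CS.card_moved (h : CS p Z A φ) {Q : Sylow p G} (hQ : (Q : Subgroup G) ≤ Z) :
    (A.filter (fun x => ¬ Fx (Q : Subgroup G) x)).card = p := by
  have h1 := card_filter_add_card_filter_not (s := A) (Fx (Q : Subgroup G))
  have h2 := h.fix Q hQ
  have h3 := h.card
  unfold fx at h2
  omega

theorem CS.moved (h : CS p Z A φ) {Q : Sylow p G} (hQ : (Q : Subgroup G) ≤ Z) :
    ∃ x ∈ A, ¬ Fx (Q : Subgroup G) x := by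
  have : (A.filter (fun x => ¬ Fx (Q : Subgroup G) x)).Nonempty :=
    card_pos.1 (by rw [h.card_moved hQ]; exact hp.out.pos)
  obtain ⟨x, hx⟩ := this
  exact ⟨x, mem_filter.1 hx⟩

theorem CS.not_fx (h : CS p Z A φ) {x : Ω} (hx : x ∈ A) : ¬ Fx Z x := by
  intro hf
  obtain ⟨Q, hQ⟩ := h.good.ex
  obtain ⟨y, hy, hm⟩ := h.moved hQ
  obtain ⟨g, hg, rfl⟩ := h.tr x hx y hy
  rw [hf g hg] at hm
  exact hm (hf.mono hQ)

theorem CS.exfix (h : CS p Z A φ) (hφ : 1 ≤ φ) {Q : Sylow p G} (hQ : (Q : Subgroup G) ≤ Z) :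
    ∃ a ∈ A, Fx (Q : Subgroup G) a := fx_pos.1 (by rw [h.fix Q hQ]; exact hφ)

theorem CS.exQ (h : CS p Z A φ) (hφ : 1 ≤ φ) {a : Ω} (ha : a ∈ A) :
    ∃ Q : Sylow p G, (Q : Subgroup G) ≤ St Z a := by
  obtain ⟨Q, hQ⟩ := h.good.ex
  obtain ⟨b, hb, hf⟩ := h.exfix hφ hQ
  obtain ⟨g, hg, rfl⟩ := h.tr b hb a ha
  exact ⟨g • Q, by rw [coe_sm]; exact le_St.2 ⟨sm_le hg hQ, (Fx_sm g).2 hf⟩⟩

theorem moved_inv {R : Subgroup G} {C : Finset Ω} (hC : Inv R C) :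
    Inv R (C.filter (fun x => ¬ Fx R x)) := by
  intro g hg x hx
  rw [mem_filter] at hx ⊢
  refine ⟨hC g hg x hx.1, fun h2 => hx.2 ?_⟩
  rw [← Fx_sm g, sm_self hg]; exact h2

theorem le_card_moved {Q : Sylow p G} {C : Finset Ω} (hC : Inv (Q : Subgroup G) C)
    (hne : C.Nonempty) (hm : ∀ x ∈ C, ¬ Fx (Q : Subgroup G) x) : p ≤ C.card := by
  obtain ⟨y, hy⟩ := hne
  have h1 := tt_pos hC hy (hm y hy)
  have h2 := card_eq hC
  nlinarith

theorem CS.moved_sub (h : CS p Z A φ) (hV : Good p V) (hVZ : V ≤ Z) {Q : Sylow p G}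
    (hQ : (Q : Subgroup G) ≤ V) {x : Ω} (hx : x ∈ A) (hm : ¬ Fx V x) :
    A.filter (fun x => ¬ Fx (Q : Subgroup G) x) ⊆ orb V x := by
  obtain ⟨y, hy, hym⟩ := hV.moved hm hQ
  have h1 := le_card_moved (moved_inv ((orb_inv x).mono hQ)) ⟨y, mem_filter.2 ⟨hy, hym⟩⟩
    (fun z hz => (mem_filter.1 hz).2)
  have h2 : (orb V x).filter (fun x => ¬ Fx (Q : Subgroup G) x) ⊆
      A.filter (fun x => ¬ Fx (Q : Subgroup G) x) :=
    filter_subset_filter _ (orb_sub (h.inv.mono hVZ) hx)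
  rw [← eq_of_subset_of_card_le h2 (by rw [h.card_moved (hQ.trans hVZ)]; exact h1)]
  exact filter_subset _ _

theorem CS.sub (h : CS p Z A φ) (hV : Good p V) (hVZ : V ≤ Z) :
    fx V A ≤ φ ∧ CS p V (A.filter (fun x => ¬ Fx V x)) (φ - fx V A) := by
  have key : ∀ Q : Sylow p G, (Q : Subgroup G) ≤ V →
      fx (Q : Subgroup G) (A.filter (fun x => ¬ Fx V x)) + fx V A = φ := by
    intro Q hQ
    rw [← h.fix Q (hQ.trans hVZ), fx_split (Q : Subgroup G) (filter_subset (Fx V) A),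
      ← filter_not]
    congr 1
    unfold fx
    rw [filter_true_of_mem (s := A.filter (Fx V)) fun x hx => (mem_filter.1 hx).2.mono hQ]
  obtain ⟨Q, hQ⟩ := hV.ex
  have h1 := key Q hQ
  refine ⟨by omega, hV, moved_inv (h.inv.mono hVZ), ?_, ?_, fun Q' hQ' => ?_⟩
  · intro x hx y hy
    rw [mem_filter] at hx hy
    obtain ⟨z, hz, hzm⟩ := h.moved (hQ.trans hVZ)
    have h2 := h.moved_sub hV hVZ hQ hx.1 hx.2 (mem_filter.2 ⟨hz, hzm⟩)
    have h3 := h.moved_sub hV hVZ hQ hy.1 hy.2 (mem_filter.2 ⟨hz, hzm⟩)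
    exact orb_tr (orb_symm h2) (orb_symm h3)
  · have h2 := card_filter_add_card_filter_not (s := A) (Fx V)
    have h3 := h.card
    unfold fx at h1 ⊢
    omega
  · have := key Q' hQ'
    omega

theorem CS.nofix (h : CS p Z A φ) (hV : Good p V) (hVZ : V ≤ Z) (hn : ∀ x ∈ A, ¬ Fx V x) :
    CS p V A φ := by
  have h1 := (h.sub hV hVZ).2
  have h2 : fx V A = 0 := by
    by_contra h0
    obtain ⟨x, hx, hf⟩ := fx_pos.1 (Nat.pos_of_ne_zero h0)
    exact hn x hx hf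
  rwa [filter_true_of_mem hn, h2, Nat.sub_zero] at h1

theorem Op_St_eq {a b : Ω} (hb : b ∈ orb Z a) (hf : Fx (Op p (St Z a)) b) :
    Op p (St Z a) = Op p (St Z b) := by
  obtain ⟨g, hg, rfl⟩ := mem_orb.1 hb
  apply eq_of_le_card
  · exact Op_mono' fun Q hQ => le_St.2 ⟨hQ.trans St_le, hf.mono (le_Op.2 hQ)⟩
  · rw [← card_sm g (Op p (St Z a)), Op_sm, St_sm, sm_self hg]

theorem Op_St_sm {g : G} (hg : g ∈ Z) (a : Ω) : g • Op p (St Z a) = Op p (St Z (g • a)) := by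
  rw [Op_sm, St_sm, sm_self hg]

theorem CS.only (h : CS p Z A φ) (hφ : 1 ≤ φ) {a b : Ω} (ha : a ∈ A) (hb : b ∈ A)
    (hf : Fx (Op p (St Z a)) b) : b = a := by
  by_contra hne
  obtain ⟨Q, hQ⟩ := h.exQ hφ ha
  have hQZ := hQ.trans St_le
  set M := A.filter (fun x => ¬ Fx (Q : Subgroup G) x) with hM
  have hgood : ∀ x ∈ A, Good p (Op p (St Z x)) := fun x hx => by
    obtain ⟨Q', hQ'⟩ := h.exQ hφ hx
    exact good_Op hQ'
  have hc : ∀ x ∈ A, fx (Op p (St Z x)) A = fx (Op p (St Z a)) A := by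
    intro x hx
    obtain ⟨g, hg, rfl⟩ := h.tr a ha x hx
    rw [← Op_St_sm hg, ← fx_image g (Op p (St Z a)), image_inv h.inv hg]
  have h2 : 2 ≤ fx (Op p (St Z a)) A :=
    one_lt_card.2 ⟨a, mem_filter.2 ⟨ha, Fx_Op⟩, b, mem_filter.2 ⟨hb, hf⟩, fun e => hne e.symm⟩
  have hfib : ∀ x ∈ M, M.filter (fun y => Op p (St Z y) = Op p (St Z x)) =
      A.filter (Fx (Op p (St Z x))) := by
    intro x hx
    rw [hM, mem_filter] at hx
    ext y
    rw [mem_filter, hM, mem_filter, mem_filter]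
    constructor
    · rintro ⟨⟨hy, -⟩, e⟩
      exact ⟨hy, by rw [← e]; exact Fx_Op⟩
    · rintro ⟨hy, hf'⟩
      have e := Op_St_eq (by rw [h.orb_eq hx.1]; exact hy) hf'
      refine ⟨⟨hy, fun hq => hx.2 ?_⟩, e.symm⟩
      exact Fx_Op.mono (by rw [e]; exact le_Op.2 (le_St.2 ⟨hQZ, hq⟩))
  have h3 := card_eq_sum_card_image (fun y => Op p (St Z y)) M
  rw [h.card_moved hQZ, sum_congr rfl (g := fun _ => fx (Op p (St Z a)) A), sum_const,
    smul_eq_mul] at h3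
  · have h4 : (M.image (fun y => Op p (St Z y))).card = 1 := by
      rcases (Nat.dvd_prime hp.out).1 ⟨_, h3⟩ with h5 | h5
      · exact h5
      · rw [h5] at h3
        have := hp.out.pos
        nlinarith
    obtain ⟨U, hU⟩ := card_eq_one.1 h4
    obtain ⟨y, hy, hym⟩ := h.moved hQZ
    have hyM : y ∈ M := mem_filter.2 ⟨hy, hym⟩
    have e : ∀ z ∈ M, Op p (St Z z) = U := fun z hz =>
      mem_singleton.1 (hU ▸ mem_image_of_mem _ hz)
    refine hym (Fx_Op.mono ((Fx_iff_le (hgood y hy)).1 fun g hg => ?_))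
    rw [Op_St_sm (hQZ hg), e y hyM, e _ (moved_inv (h.inv.mono hQZ) g hg y hyM)]
  · intro U hU
    obtain ⟨x, hx, rfl⟩ := mem_image.1 hU
    rw [hfib x hx]
    exact hc x (mem_filter.1 hx).1

theorem CS.one (h : CS p Z A (φ + 1)) {a : Ω} (ha : a ∈ A) :
    CS p (Op p (St Z a)) (A.erase a) φ := by
  obtain ⟨Q, hQ⟩ := h.exQ (by omega) ha
  have h1 := (h.sub (good_Op hQ) (Op_le.trans St_le)).2
  have e1 : A.filter (Fx (Op p (St Z a))) = {a} := by
    ext b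
    rw [mem_filter, mem_singleton]
    exact ⟨fun hb => h.only (by omega) ha hb.1 hb.2, fun e => by rw [e]; exact ⟨ha, Fx_Op⟩⟩
  have e2 : fx (Op p (St Z a)) A = 1 := by unfold fx; rw [e1, card_singleton]
  rwa [filter_not, e1, e2, sdiff_singleton_eq_erase, Nat.add_sub_cancel] at h1

theorem CS.one' (h : CS p Z A φ) (hφ : 1 ≤ φ) {a : Ω} (ha : a ∈ A) :
    CS p (Op p (St Z a)) (A.erase a) (φ - 1) := by
  obtain ⟨ψ, rfl⟩ : ∃ ψ, φ = ψ + 1 := ⟨φ - 1, by omega⟩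
  exact h.one ha

theorem CS.not_dvd (h : CS p Z A φ) (hφ : 1 ≤ φ) : ¬ p ∣ φ := by
  obtain ⟨Q, hQ⟩ := h.good.ex
  obtain ⟨a, ha, hf⟩ := h.exfix hφ hQ
  have := not_dvd_orb hQ hf
  rw [h.orb_eq ha, h.card] at this
  exact fun hd => this (dvd_add dvd_rfl hd)

theorem CS.lt : ∀ {φ : ℕ} {Z : Subgroup G} {A : Finset Ω}, CS p Z A φ → φ < p := by
  intro φ
  induction φ with
  | zero => intro _ _ _; exact hp.out.pos
  | succ n ih =>
    intro Z A h
    obtain ⟨Q, hQ⟩ := h.good.ex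
    obtain ⟨a, ha, -⟩ := h.exfix (by omega) hQ
    have h1 := ih (h.one ha)
    have h2 := h.not_dvd (by omega)
    rcases Nat.lt_or_ge (n + 1) p with h3 | h3
    · exact h3
    · exact absurd (by rw [show n + 1 = p by omega]) h2

theorem CS.max (h : CS p Z A φ) (hφ : 1 ≤ φ) {a : Ω} (ha : a ∈ A) (hV : Good p V)
    (h1 : Op p (St Z a) ≤ V) (h2 : V ≤ Z) : V = Op p (St Z a) ∨ V = Z := by
  by_cases hf : Fx V a
  · exact Or.inl (le_antisymm (hV.le_Op (le_St.2 ⟨h2, hf⟩)) h1)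
  · right
    have h3 := h.one' hφ ha
    have h4 : CS p V A φ := h.nofix hV h2 fun x hx hfx => by
      by_cases e : x = a
      · exact hf (e ▸ hfx)
      · exact h3.not_fx (mem_erase.2 ⟨e, hx⟩) (hfx.mono h1)
    refine le_antisymm h2 (h.good.le fun Q hQ => ?_)
    obtain ⟨b, hb, hfb⟩ := h.exfix hφ hQ
    obtain ⟨g, hg, rfl⟩ := h4.tr a ha b hb
    refine (le_Op.2 (le_St.2 ⟨hQ, hfb⟩)).trans ?_
    rw [← Op_St_sm (h2 hg)]
    exact sm_le hg h1

theorem CS.two (h : CS p Z A φ) (hφ : 1 ≤ φ) {x y x' y' : Ω} (hx : x ∈ A) (hy : y ∈ A)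
    (hx' : x' ∈ A) (hy' : y' ∈ A) (hne : y ≠ x) (hne' : y' ≠ x') :
    ∃ g ∈ Z, g • x = x' ∧ g • y = y' := by
  obtain ⟨g, hg, rfl⟩ := h.tr x hx x' hx'
  obtain ⟨k, hk, rfl⟩ := (h.one' hφ hx').tr (g • y)
    (mem_erase.2 ⟨fun e => hne (MulAction.injective g e), h.inv g hg y hy⟩) y'
    (mem_erase.2 ⟨hne', hy'⟩)
  exact ⟨k * g, Z.mul_mem ((Op_le.trans St_le) hk) hg, by rw [mul_smul, Fx_Op k hk], mul_smul _ _ _⟩

/-- the subgroup generated by the Sylow subgroups fixing a set pointwise -/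
theorem CS.multi (h : CS p Z A φ) {Q : Sylow p G} (hQ : (Q : Subgroup G) ≤ Z) (S : Finset Ω)
    (hS : S ⊆ A) (hf : ∀ x ∈ S, Fx (Q : Subgroup G) x) :
    ∃ U : Subgroup G, U ≤ Z ∧ (Q : Subgroup G) ≤ U ∧ (∀ x ∈ S, Fx U x) ∧ S.card ≤ φ ∧
      CS p U (A \ S) (φ - S.card) := by
  induction S using Finset.induction_on with
  | empty => exact ⟨Z, le_rfl, hQ, by simp, by simp, by simpa using h⟩
  | insert a S ha ih =>
    obtain ⟨U, h1, h2, h3, h4, h5⟩ := ih ((subset_insert a S).trans hS)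
      fun x hx => hf x (mem_insert_of_mem hx)
    have haA : a ∈ A \ S := mem_sdiff.2 ⟨hS (mem_insert_self a S), ha⟩
    have hfa := hf a (mem_insert_self a S)
    have h6 : 1 ≤ φ - S.card := by
      rw [← h5.fix Q h2]; exact fx_pos.2 ⟨a, haA, hfa⟩
    have h7 := h5.one' h6 haA
    refine ⟨Op p (St U a), (Op_le.trans St_le).trans h1, le_Op.2 (le_St.2 ⟨h2, hfa⟩), ?_, ?_, ?_⟩
    · intro x hx
      rcases mem_insert.1 hx with rfl | hx
      · exact Fx_Op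
      · exact (h3 x hx).mono (Op_le.trans St_le)
    · rw [card_insert_of_notMem ha]; omega
    · rw [card_insert_of_notMem ha, sdiff_insert, ← Nat.sub_sub]
      exact h7

/-- fixed point ratio of an orbit compared with a cycle set -/
theorem CS.ratio_orb {Ω' : Type*} [MulAction G Ω'] (h : CS p Z A φ) {x : Ω} (hx : x ∈ A) (y : Ω')
    (hxy : ∀ Q : Sylow p G, (Q : Subgroup G) ≤ Z →
      (Fx (Q : Subgroup G) x ↔ Fx (Q : Subgroup G) y))
    {Q : Sylow p G} (hQ : (Q : Subgroup G) ≤ Z) :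
    fx (Q : Subgroup G) (orb Z y) = φ * FPS.tt p (Q : Subgroup G) (orb Z y) := by
  have h1 := bridge x hQ
  have h2 := bridge y hQ
  have h3 : nu p (St Z x) = nu p (St Z y) := nu_congr fun Q' => by
    rw [le_St, le_St]
    exact ⟨fun h' => ⟨h'.1, (hxy Q' h'.1).1 h'.2⟩, fun h' => ⟨h'.1, (hxy Q' h'.1).2 h'.2⟩⟩
  rw [h.orb_eq hx, h.fix Q hQ, h.card, h3] at h1
  rw [card_eq ((orb_inv y).mono hQ)] at h2
  have h4 := nu_pos hQ
  have h5 := hp.out.pos
  generalize fx (Q : Subgroup G) (orb Z y) = f at *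
  generalize FPS.tt p (Q : Subgroup G) (orb Z y) = t at *
  generalize nu p (St Z y) = s at *
  generalize nu p Z = n at *
  have h6 : n * (p * f) = n * (p * (φ * t)) := by
    have e1 : (p + φ) * (f * n) = (f + p * t) * (φ * n) := by rw [h1, h2]; ring
    nlinarith
  exact Nat.eq_of_mul_eq_mul_left h5 (Nat.eq_of_mul_eq_mul_left h4 h6)

theorem CS.ratio {Ω' : Type*} [MulAction G Ω'] {A' : Finset Ω'} {φ' : ℕ} (h : CS p Z A φ)
    (h' : CS p Z A' φ') {x : Ω} (hx : x ∈ A) {y : Ω'} (hy : y ∈ A')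
    (hxy : ∀ Q : Sylow p G, (Q : Subgroup G) ≤ Z →
      (Fx (Q : Subgroup G) x ↔ Fx (Q : Subgroup G) y)) : φ = φ' := by
  obtain ⟨Q, hQ⟩ := h.good.ex
  have := h.ratio_orb hx y hxy hQ
  rw [h'.orb_eq hy, h'.fix Q hQ, h'.tt hQ, mul_one] at this
  exact this.symm

end Cfsg.Agent.FPS
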