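import Cfsg.Agent.FPS.Cyc

/-! Reduction of an arbitrary orbit to a primitive one. -/

set_option autoImplicit false
set_option linter.unusedSectionVars false

namespace Cfsg.Agent.FPS

open Classical Finset

variable {G : Type*} [Group G] [Fintype G] {Ω : Type*} [MulAction G Ω]

def Prim (Z : Subgroup G) (x : Ω) : Prop := ∀ V, St Z x ≤ V → V ≤ Z → V = St Z x ∨ V = Z

def HB (p : ℕ) (Z : Subgroup G) (x : Ω) : Prop :=
  Good p Z → ¬ Fx Z x → Prim Z x → ∀ Q : Sylow p G, (Q : Subgroup G) ≤ St Z x →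
    tt p (Q : Subgroup G) (orb Z x) = 1 ∨
      2 * (p : ℤ) - 2 - (fx (Q : Subgroup G) (orb Z x) % p : ℕ) ≤ dl p (Q : Subgroup G) (orb Z x)

def HP (p : ℕ) (Z : Subgroup G) : Prop := ∀ V : Subgroup G, HB p Z V

variable {p : ℕ} [hp : Fact p.Prime] {Y : Subgroup G}

theorem Prim.sm {x : Ω} (h : Prim Y x) {g : G} (hg : g ∈ Y) : Prim Y (g • x) := by
  intro V h1 h2
  have e : g • St Y x = St Y (g • x) := by rw [St_sm, sm_self hg]
  rcases h (g⁻¹ • V) (by rw [← sm_le_iff (g := g), smul_inv_smul, e]; exact h1)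
    (sm_le (Y.inv_mem hg) h2) with h3 | h3
  · left; rw [← e, ← h3, smul_inv_smul]
  · right; rw [← smul_inv_smul g V, h3, sm_self hg]

theorem ex_max {H : Subgroup G} (h : H ≤ Y) (hne : H ≠ Y) :
    ∃ M, H ≤ M ∧ M ≤ Y ∧ M ≠ Y ∧ ∀ V, M ≤ V → V ≤ Y → V = M ∨ V = Y := by
  obtain ⟨M, ⟨h1, h2, h3⟩, hM⟩ := Set.exists_max_image {V : Subgroup G | H ≤ V ∧ V ≤ Y ∧ V ≠ Y}
    (fun V => Nat.card V) (Set.toFinite _) ⟨H, le_rfl, h, hne⟩
  refine ⟨M, h1, h2, h3, fun V hV hVY => ?_⟩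
  by_cases e : V = Y
  · exact Or.inr e
  · exact Or.inl (eq_of_le_card hV (hM V ⟨h1.trans hV, hVY, e⟩)).symm

theorem dich (hY : Good p Y) (hP : HP p Y) {b : Ω} (hb : ¬ Fx Y b) {Q : Sylow p G}
    (hQ : (Q : Subgroup G) ≤ St Y b) :
    0 ≤ dl p (Q : Subgroup G) (orb Y b) ∧
    (2 * (p : ℤ) - 2 ≤ dl p (Q : Subgroup G) (orb Y b) ∨
      (∃ φ, CS p Y (orb Y (Op p (St Y b))) φ) ∨
      (Prim Y b ∧ 2 ≤ tt p (Q : Subgroup G) (orb Y b) ∧
        2 * (p : ℤ) - 2 - (fx (Q : Subgroup G) (orb Y b) % p : ℕ) ≤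
          dl p (Q : Subgroup G) (orb Y b))) := by
  obtain ⟨M, hHM, hMY, hne, hmax⟩ := ex_max (St_le (Z := Y) (x := b))
    (fun e => hb (by rw [← e]; exact Fx_St))
  have hQM := hQ.trans hHM
  have hQY := hQM.trans hMY
  have hU : Good p (Op p M) := good_Op hQM
  have hnf : ¬ Fx Y (Op p M) := fun h => hne (le_antisymm hMY ((hY.Fx_iff hU).1 h |>.trans Op_le))
  have hSt : St Y (Op p M) = M := by
    refine (hmax _ (le_St.2 ⟨hMY, fun g hg => by rw [Op_sm, sm_self hg]⟩) St_le).resolve_right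
      fun e => hnf (by rw [← e]; exact Fx_St)
  have hQU : Fx (Q : Subgroup G) (Op p M) := (Fx_iff_le hU).2 (le_Op.2 hQM)
  have hH := hP (Op p M) hY hnf (by intro V h1 h2; rw [hSt] at h1 ⊢; exact hmax V h1 h2) Q
    (by rw [hSt]; exact hQM)
  have eS : St M b = St Y b := le_antisymm (le_St.2 ⟨St_le.trans hMY, Fx_St⟩)
    (le_St.2 ⟨hHM, Fx_St⟩)
  have o1 := orbstab Y b
  have o2 := orbstab Y (Op p M)
  have o3 := orbstab M b
  have b1 := bridge b hQY
  have b2 := bridge (Op p M) hQY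
  have b3 := bridge b hQM
  rw [hSt] at o2 b2
  rw [eS] at o3 b3
  have hn : (orb Y b).card = (orb Y (Op p M)).card * (orb M b).card := by
    apply Nat.eq_of_mul_eq_mul_right (Nat.card_pos (α := St Y b))
    rw [← o1, o2, o3]; ring
  have hf : fx (Q : Subgroup G) (orb Y b) =
      fx (Q : Subgroup G) (orb Y (Op p M)) * fx (Q : Subgroup G) (orb M b) := by
    apply Nat.eq_of_mul_eq_mul_right (nu_pos hQY)
    rw [b1, hn, mul_assoc, ← b3, mul_right_comm, b2]; ring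
  have c2 := card_eq ((orb_inv (Op p M)).mono hQY)
  have c3 := card_eq ((orb_inv b).mono hQM)
  have ht : tt p (Q : Subgroup G) (orb Y b) = (orb M b).card * tt p (Q : Subgroup G) (orb Y (Op p M))
      + fx (Q : Subgroup G) (orb Y (Op p M)) * tt p (Q : Subgroup G) (orb M b) := by
    apply tt_eq
    rw [hn, hf]
    conv_lhs => rw [c2]
    nth_rewrite 1 [add_mul]
    conv_lhs => enter [1]; rw [c3]
    ring
  have hd : dl p (Q : Subgroup G) (orb Y b) =
      (orb M b).card * dl p (Q : Subgroup G) (orb Y (Op p M)) +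
      fx (Q : Subgroup G) (orb Y (Op p M)) * tt p (Q : Subgroup G) (orb M b) * (2 * p - 1) := by
    unfold dl
    rw [ht, hf]
    have := congrArg (Nat.cast : ℕ → ℤ) c3
    push_cast at this ⊢
    rw [this]; ring
  have hf1 : 1 ≤ fx (Q : Subgroup G) (orb Y (Op p M)) := fx_pos.2 ⟨_, self_mem _, hQU⟩
  have hmod : fx (Q : Subgroup G) (orb Y (Op p M)) % p < p := Nat.mod_lt _ hp.out.pos
  have hp2 := hp.out.two_le
  have hd0 : 0 ≤ dl p (Q : Subgroup G) (orb Y (Op p M)) := by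
    rcases hH with h1 | h1
    · have := (CS.of_orb hY hQY h1).lt
      unfold dl; rw [h1]; push_cast; omega
    · omega
  have hb1 : 1 ≤ (orb M b).card := card_pos.2 ⟨b, self_mem b⟩
  refine ⟨by rw [hd]; have : (0 : ℤ) ≤ 2 * p - 1 := by omega
             positivity, ?_⟩
  rcases Nat.eq_zero_or_pos (tt p (Q : Subgroup G) (orb M b)) with h0 | h0
  · have hall : ∀ y ∈ orb M b, Fx (Q : Subgroup G) y := fun y hy => by
      by_contra hm
      have := tt_pos ((orb_inv b).mono hQM) hy hm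
      omega
    have hUb : Fx (Op p M) b := by
      by_contra hm
      obtain ⟨y, hy, hym⟩ := hU.moved hm (le_Op.2 hQM)
      exact hym (hall y (orb_mono Op_le b hy))
    have eU : Op p M = Op p (St Y b) :=
      le_antisymm (hU.le_Op (le_St.2 ⟨Op_le.trans hMY, hUb⟩)) (Op_mono' fun _ h => h.trans hHM)
    by_cases h1 : tt p (Q : Subgroup G) (orb Y (Op p M)) = 1
    · exact Or.inr (Or.inl ⟨_, eU ▸ CS.of_orb hY hQY h1⟩)
    · have h2 := hH.resolve_left h1
      rw [h0] at hd ht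
      rcases Nat.lt_or_ge (orb M b).card 2 with h3 | h3
      · have h4 : (orb M b).card = 1 := by omega
        have h5 : fx (Q : Subgroup G) (orb M b) = 1 := by rw [h0, h4] at c3; omega
        have h6 : St Y b = M := eq_of_le_card hHM (by rw [o3, h4, one_mul])
        obtain ⟨y, hy, hym⟩ := hY.moved hnf hQY
        have h7 := tt_pos ((orb_inv _).mono hQY) hy hym
        refine Or.inr (Or.inr ⟨by intro V; rw [h6]; exact hmax V, by rw [ht, h4]; omega, ?_⟩)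
        rw [hd, hf, h4, h5, mul_one]
        simpa using h2
      · left
        rw [hd]
        have : (2 : ℤ) ≤ (orb M b).card := by exact_mod_cast h3
        have h8 : (p : ℤ) - 1 ≤ dl p (Q : Subgroup G) (orb Y (Op p M)) := by omega
        push_cast
        nlinarith
  · left
    rw [hd]
    have h1 : (1 : ℤ) ≤ fx (Q : Subgroup G) (orb Y (Op p M)) * tt p (Q : Subgroup G) (orb M b) := by
      exact_mod_cast Nat.mul_pos hf1 h0
    have h2 : (0 : ℤ) ≤ (orb M b).card * dl p (Q : Subgroup G) (orb Y (Op p M)) := by positivity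
    have h3 : (2 : ℤ) ≤ p := by exact_mod_cast hp2
    nlinarith

theorem dl_nofix {b : Ω} (hY : Good p Y) (hb : ¬ Fx Y b) {Q : Sylow p G}
    (hQ : (Q : Subgroup G) ≤ Y) (h0 : fx (Q : Subgroup G) (orb Y b) = 0) :
    (p : ℤ) - 1 ≤ dl p (Q : Subgroup G) (orb Y b) := by
  obtain ⟨y, hy, hym⟩ := hY.moved hb hQ
  have h7 : (1 : ℤ) ≤ tt p (Q : Subgroup G) (orb Y b) := by
    exact_mod_cast tt_pos ((orb_inv _).mono hQ) hy hym
  have h3 : (2 : ℤ) ≤ p := by exact_mod_cast hp.out.two_le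
  unfold dl
  rw [h0]
  push_cast
  nlinarith

theorem not_fx_orb {b y : Ω} (hb : ¬ Fx Y b) (hy : y ∈ orb Y b) : ¬ Fx Y y := by
  intro h
  obtain ⟨g, hg, rfl⟩ := mem_orb.1 hy
  rw [← Fx_sm g, sm_self hg] at hb
  exact hb h

theorem dl_orb_nonneg (hY : Good p Y) (hP : HP p Y) {b : Ω} (hb : ¬ Fx Y b) {Q : Sylow p G}
    (hQ : (Q : Subgroup G) ≤ Y) : 0 ≤ dl p (Q : Subgroup G) (orb Y b) := by
  rcases Nat.eq_zero_or_pos (fx (Q : Subgroup G) (orb Y b)) with h0 | h0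
  · have := dl_nofix hY hb hQ h0
    have h3 : (2 : ℤ) ≤ p := by exact_mod_cast hp.out.two_le
    omega
  · obtain ⟨y, hy, hf⟩ := fx_pos.1 h0
    rw [← orb_eq hy]
    exact (dich hY hP (not_fx_orb hb hy) (le_St.2 ⟨hQ, hf⟩)).1

theorem dl_nonneg (hY : Good p Y) (hP : HP p Y) {Q : Sylow p G} (hQ : (Q : Subgroup G) ≤ Y)
    (C : Finset Ω) (hC : Inv Y C) : (∀ x ∈ C, ¬ Fx Y x) → 0 ≤ dl p (Q : Subgroup G) C := by
  refine orb_ind (Z := Y) (fun C => (∀ x ∈ C, ¬ Fx Y x) → 0 ≤ dl p (Q : Subgroup G) C) ?_ ?_ C hC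
  · intro _; simp [dl, tt, fx]
  · intro C x hC hx ih hn
    rw [dl_split (hC.mono hQ) ((orb_inv x).mono hQ) (orb_sub hC hx)]
    exact add_nonneg (ih fun y hy => hn y (mem_sdiff.1 hy).1) (dl_orb_nonneg hY hP (hn x hx) hQ)

theorem dl_le_of_sub (hY : Good p Y) (hP : HP p Y) {Q : Sylow p G} (hQ : (Q : Subgroup G) ≤ Y)
    {C D : Finset Ω} (hC : Inv Y C) (hD : Inv Y D) (h : D ⊆ C) (hn : ∀ x ∈ C, ¬ Fx Y x) :
    dl p (Q : Subgroup G) D ≤ dl p (Q : Subgroup G) C := by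
  rw [dl_split (hC.mono hQ) (hD.mono hQ) h]
  have := dl_nonneg hY hP hQ _ (hC.sdiff hD) fun y hy => hn y (mem_sdiff.1 hy).1
  omega

end Cfsg.Agent.FPS
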