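import Cfsg.Agent.FPS.S3

/-! The two applications of the fixed point bound. -/

set_option autoImplicit false
set_option linter.unusedSectionVars false

namespace Cfsg.Agent.FPS

open Classical Finset

variable {G : Type*} [Group G] {p : ℕ} [hp : Fact p.Prime]

theorem nu_eq_card [Fintype G] {H : Subgroup G} {P : Sylow p G} (hP : (P : Subgroup G) ≤ H) :
    nu p H = Nat.card (Sylow p H) := by
  unfold nu
  rw [← Nat.card_coe_set_eq]
  refine Nat.card_congr (Equiv.ofBijective (fun Q => Q.1.subtype Q.2) ⟨fun Q Q' e => ?_, fun T => ?_⟩)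
  · exact Subtype.ext (Sylow.subtype_injective e)
  · obtain ⟨g, hg⟩ := MulAction.exists_smul_eq H (P.subtype hP) T
    rw [Sylow.smul_subtype] at hg
    exact ⟨⟨(g : G) • P, show (((g : G) • P : Sylow p G) : Subgroup G) ≤ H by
      rw [coe_sm]; exact sm_le g.2 hP⟩, hg⟩

theorem s4181 [Finite G] (hgen : Subgroup.closure {g : G | ∃ k : ℕ, orderOf g = p ^ k} = ⊤)
    (H : Subgroup G) (hH : H ≠ ⊤) (P : Sylow p G) (hP : (P : Subgroup G) ≤ H) :
    (2 * p - 1) * Nat.card (Sylow p ↥H) ≤ (p - 1) * Nat.card (Sylow p G) := by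
  let := Fintype.ofFinite G
  have hG : Good p (⊤ : Subgroup G) := by
    refine ⟨top_le_iff.1 ?_, P, le_top⟩
    rw [← hgen, Subgroup.closure_le]
    rintro g ⟨k, hk⟩
    have : IsPGroup p (Subgroup.zpowers g) := IsPGroup.of_card (n := k) (by rw [Nat.card_zpowers, hk])
    obtain ⟨Q, hQ⟩ := this.exists_le_sylow
    rw [hgen]
    exact (le_Op.2 le_top : (Q : Subgroup G) ≤ _) (hQ (Subgroup.mem_zpowers g))
  have hSt : St (⊤ : Subgroup G) ((1 : G) : G ⧸ H) = H := by
    rw [St, MulAction.stabilizer_quotient, top_inf_eq]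
  have hn : ¬ Fx (⊤ : Subgroup G) ((1 : G) : G ⧸ H) := fun h =>
    hH (top_le_iff.1 (by rw [← hSt]; exact le_St.2 ⟨le_rfl, h⟩))
  have h1 := main hG (Q := P) le_top _ (orb_inv ((1 : G) : G ⧸ H)) fun y hy => not_fx_orb hn hy
  have h2 := bridge (Z := ⊤) ((1 : G) : G ⧸ H) (Q := P) le_top
  have h3 : 0 < fx (P : Subgroup G) (orb (⊤ : Subgroup G) ((1 : G) : G ⧸ H)) :=
    fx_pos.2 ⟨((1 : G) : G ⧸ H), self_mem (Z := (⊤ : Subgroup G)) _,
      (Fx_St (Z := (⊤ : Subgroup G))).mono (by rw [hSt]; exact hP)⟩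
  have h4 : nu p (⊤ : Subgroup G) = Nat.card (Sylow p G) := by
    unfold nu
    simp
  rw [hSt, card_eq (Q := P) ((orb_inv (Z := (⊤ : Subgroup G)) ((1 : G) : G ⧸ H)).mono le_top),
    nu_eq_card hP, h4] at h2
  generalize fx (P : Subgroup G) (orb (⊤ : Subgroup G) ((1 : G) : G ⧸ H)) = f at *
  generalize tt p (P : Subgroup G) (orb (⊤ : Subgroup G) ((1 : G) : G ⧸ H)) = t at *
  obtain ⟨q, rfl⟩ : ∃ q, p = q + 1 := ⟨p - 1, by have := hp.out.pos; omega⟩
  rw [show 2 * (q + 1) - 1 = 2 * q + 1 by omega, Nat.add_sub_cancel] at *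
  apply Nat.le_of_mul_le_mul_left _ h3
  generalize Nat.card (Sylow (q + 1) H) = s at *
  have h5 : (q + 1) * f * s ≤ (q + 1) * (t * q) * s := by gcongr
  calc f * ((2 * q + 1) * s) = q * f * s + (q + 1) * f * s := by ring
    _ ≤ q * f * s + (q + 1) * (t * q) * s := by omega
    _ = q * ((f + (q + 1) * t) * s) := by ring
    _ = _ := by rw [← h2]; ring

theorem s3580 {Ω : Type*} [Finite G] [MulAction G Ω] [FaithfulSMul G Ω] [Finite Ω]
    (htrans : MulAction.IsPretransitive G Ω) (hpG : p ∣ Nat.card G) (P : Sylow p G) :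
    (2 * p - 1) * Nat.card (MulAction.orbitRel.Quotient ↥(P : Subgroup G) Ω) ≤ p * Nat.card Ω := by
  let := Fintype.ofFinite G
  let := Fintype.ofFinite Ω
  have hN : Good p (Op p (⊤ : Subgroup G)) := good_Op (Q := P) le_top
  have hn : ∀ x : Ω, ¬ Fx (Op p (⊤ : Subgroup G)) x := by
    intro x hx
    refine P.ne_bot_of_dvd_card hpG (eq_bot_iff.2 fun g hg => ?_)
    refine FaithfulSMul.eq_of_smul_eq_smul (α := Ω) fun y => ?_
    obtain ⟨k, rfl⟩ := MulAction.exists_smul_eq G x y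
    rw [← Fx_sm k, Op_sm, sm_self (Subgroup.mem_top k)] at hx
    rw [one_smul]
    exact hx g ((le_Op.2 le_top : (P : Subgroup G) ≤ _) hg)
  have h1 := main hN (Q := P) (le_Op.2 le_top) (univ : Finset Ω) (fun _ _ _ _ => mem_univ _)
    fun x _ => hn x
  have h2 := card_eq (Q := P) (C := (univ : Finset Ω)) (fun _ _ _ _ => mem_univ _)
  let π : Ω → MulAction.orbitRel.Quotient ↥(P : Subgroup G) Ω := Quotient.mk''
  have h3 : ∀ C : Finset Ω, Inv (P : Subgroup G) C →
      (C.image π).card ≤ fx (P : Subgroup G) C + tt p (P : Subgroup G) C := by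
    refine orb_ind _ (by simp) fun C x hC hx ih => ?_
    have s1 : C.image π ⊆ insert (π x) ((C \ orb (P : Subgroup G) x).image π) := by
      intro u hu
      obtain ⟨y, hy, rfl⟩ := mem_image.1 hu
      rw [mem_insert]
      by_cases e : y ∈ orb (P : Subgroup G) x
      · left
        obtain ⟨g, hg, rfl⟩ := mem_orb.1 e
        exact Quotient.sound' ⟨⟨g, hg⟩, rfl⟩
      · exact Or.inr (mem_image_of_mem _ (mem_sdiff.2 ⟨hy, e⟩))
    have s2 := (card_le_card s1).trans (card_insert_le _ _)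
    have s3 : 1 ≤ fx (P : Subgroup G) (orb (P : Subgroup G) x) +
        tt p (P : Subgroup G) (orb (P : Subgroup G) x) := by
      by_cases e : Fx (P : Subgroup G) x
      · have := fx_pos.2 ⟨x, self_mem (Z := (P : Subgroup G)) x, e⟩
        omega
      · have := tt_pos (orb_inv x) (self_mem x) e
        omega
    rw [tt_split hC (orb_inv x) (orb_sub hC hx), fx_split _ (orb_sub hC hx)]
    omega
  have h4 := h3 univ (fun _ _ _ _ => mem_univ _)
  have h5 : (univ.image π).card = Nat.card (MulAction.orbitRel.Quotient ↥(P : Subgroup G) Ω) := by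
    rw [← Nat.card_eq_finsetCard]
    exact Nat.card_congr (Equiv.subtypeUnivEquiv fun u => by
      obtain ⟨y, rfl⟩ := Quotient.exists_rep u
      exact mem_image_of_mem _ (mem_univ y))
  rw [← h5, Nat.card_eq_fintype_card, ← card_univ, h2]
  generalize fx (P : Subgroup G) (univ : Finset Ω) = f at *
  generalize tt p (P : Subgroup G) (univ : Finset Ω) = t at *
  obtain ⟨q, rfl⟩ : ∃ q, p = q + 1 := ⟨p - 1, by have := hp.out.pos; omega⟩
  rw [show 2 * (q + 1) - 1 = 2 * q + 1 by omega, Nat.add_sub_cancel] at *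
  have h6 : q * f ≤ q * (t * q) := by gcongr
  have h7 : (2 * q + 1) * (univ.image π).card ≤ (2 * q + 1) * (f + t) := by gcongr
  nlinarith

end Cfsg.Agent.FPS
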