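import Cfsg.Agent.FPS.Ctx

/-! Step 1: the closure of an exceptional pair is trivial. -/

set_option autoImplicit false
set_option linter.unusedSectionVars false

namespace Cfsg.Agent.FPS

open Classical Finset

variable {G : Type*} [Group G] [Fintype G] {Ω : Type*} [MulAction G Ω]
variable {p : ℕ} [hp : Fact p.Prime] {X : Subgroup G} {a0 a b c : Ω} {φ : ℕ}

theorem card_moved {Q : Sylow p G} {C : Finset Ω} (hC : Inv (Q : Subgroup G) C) :
    (C.filter (fun x => ¬ Fx (Q : Subgroup G) x)).card = p * tt p (Q : Subgroup G) C := by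
  have h1 := card_filter_add_card_filter_not (s := C) (Fx (Q : Subgroup G))
  have h2 := card_eq hC
  unfold fx at h2
  omega

theorem two_choose (n : ℕ) : (2 * n.choose 2 : ℤ) = n * (n - 1) := by
  induction n with
  | zero => simp
  | succ n ih =>
    rw [Nat.choose_succ_succ, Nat.choose_one_right]
    push_cast at ih ⊢
    linarith

/-- an equivariant map on a primitive orbit is injective or constant -/
theorem inj_or_const {Y : Subgroup G} {Ω' : Type*} [MulAction G Ω'] (hP : Prim Y b)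
    (F : Ω → Finset Ω') (hF : ∀ g ∈ Y, ∀ y, F (g • y) = (F y).image (g • ·)) :
    (∀ y ∈ orb Y b, ∀ y' ∈ orb Y b, F y = F y' → y = y') ∨ ∀ y ∈ orb Y b, F y = F b := by
  by_contra hcon
  push Not at hcon
  obtain ⟨⟨y, hy, y', hy', e, hne⟩, z, hz, hz'⟩ := hcon
  obtain ⟨g, hg, rfl⟩ := mem_orb.1 hy
  have hR : ∀ g ∈ Y, ∀ x y, F x = F y → F (g • x) = F (g • y) :=
    fun g hg x y e => by rw [hF g hg, hF g hg, e]
  refine hz' (conn hP (fun x y => F x = F y) hR (orb_inv _ _ (Y.inv_mem hg) _ hy')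
    (fun e' => hne (by rw [← e', smul_inv_smul])) ?_ {x | F x = F b}
    (fun x hx y e => Eq.trans (Eq.symm e) hx) (self_mem b) rfl z hz)
  simpa using hR _ (Y.inv_mem hg) _ _ e

theorem Ex.noline (h : Ex p X a0 a b) (H : Ctx p X a0) (hg : Good p (WW p X a b))
    (hc : Cy p X a0 a c φ) {U0 : Subgroup G} (hU0 : U0 ∈ LL p X a c) : ¬ WW p X a b ≤ U0 := by
  intro hle
  obtain ⟨Q, hQ⟩ := hg.ex
  have hQY := hQ.trans WW_le
  obtain ⟨hP, ht, -⟩ := h.fixed H hQ
  set Y := YY p X a with hY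
  set L := LL p X a c with hL
  let F : Ω → Finset (Subgroup G) := fun y => L.filter (WW p X a y ≤ ·)
  have mF : ∀ y U, U ∈ F y ↔ U ∈ L ∧ WW p X a y ≤ U := fun y U => mem_filter
  have hF : ∀ g ∈ Y, ∀ y, F (g • y) = (F y).image (g • ·) := by
    intro g hg y
    ext U
    rw [mF, mem_image, ← WW_smY (YY_le_St hg)]
    constructor
    · rintro ⟨h1, h2⟩
      exact ⟨g⁻¹ • U, (mF _ _).2 ⟨hc.cs.inv _ (Y.inv_mem hg) _ h1, by
        rw [le_sm_iff, inv_inv]; exact h2⟩, smul_inv_smul _ _⟩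
    · rintro ⟨V, hV, rfl⟩
      exact ⟨hc.cs.inv _ hg _ ((mF _ _).1 hV).1, sm_mono ((mF _ _).1 hV).2⟩
  have hinj : ∀ y ∈ orb Y b, ∀ y' ∈ orb Y b, F y = F y' → y = y' := by
    refine (inj_or_const hP F hF).resolve_right fun hcon => ?_
    obtain ⟨U, hU, hm⟩ := hc.cs.moved hQY
    obtain ⟨g, hg, rfl⟩ := hc.cs.tr U0 hU0 U hU
    have h1 : g • U0 ∈ F (g • b) := by rw [hF g hg]; exact mem_image_of_mem _ ((mF _ _).2 ⟨hU0, hle⟩)
    rw [hcon _ (orb_inv b g hg b (self_mem b))] at h1
    exact hm ((Fx_iff_le (hc.goodL hU)).2 (hQ.trans ((mF _ _).1 h1).2))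
  have hfix : ∀ y ∈ orb Y b, Fx (Q : Subgroup G) y ↔ ∀ U ∈ F y, Fx (Q : Subgroup G) U := by
    intro y hy
    constructor
    · intro hf U hU
      rw [mF] at hU
      exact (Fx_iff_le (hc.goodL hU.1)).2
        ((le_WW.2 ⟨(le_YY.1 hQY).1, (le_YY.1 hQY).2, hf⟩).trans hU.2)
    · intro hf g hg
      refine hinj _ (orb_inv b g (hQY hg) y hy) y hy ?_
      rw [hF g (hQY hg), image_congr (g := id) fun U hU => hf U hU g hg, image_id]
  have hcard : ∀ y ∈ orb Y b, (F y).card = (F b).card := by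
    intro y hy
    obtain ⟨g, hg, rfl⟩ := mem_orb.1 hy
    rw [hF g hg, card_image_of_injective _ (MulAction.injective g)]
  have hU0F : U0 ∈ F b := (mF _ _).2 ⟨hU0, hle⟩
  have hp2 := hp.out.two_le
  rcases Nat.lt_or_ge (F b).card 2 with hk | hk
  · have hk1 : (F b).card = 1 := by have := card_pos.2 ⟨U0, hU0F⟩; omega
    have h1 := card_le_card_of_injOn F (s := (orb Y b).filter (fun x => ¬ Fx (Q : Subgroup G) x))
      (t := (L.filter (fun x => ¬ Fx (Q : Subgroup G) x)).image singleton) (by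
        intro y hy
        rw [mem_coe, mem_filter] at hy
        obtain ⟨U, hU⟩ := card_eq_one.1 ((hcard y hy.1).trans hk1)
        have hUF : U ∈ F y := by rw [hU]; exact mem_singleton_self U
        refine mem_coe.2 (mem_image.2 ⟨U, mem_filter.2 ⟨((mF _ _).1 hUF).1, fun hf => hy.2 ?_⟩,
          hU.symm⟩)
        rw [hfix y hy.1, hU]
        intro V hV
        rw [mem_singleton.1 hV]; exact hf)
      (fun y hy y' hy' e => hinj y (mem_filter.1 hy).1 y' (mem_filter.1 hy').1 e)
    have h2 := card_image_le (s := L.filter (fun x => ¬ Fx (Q : Subgroup G) x))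
      (f := (singleton : Subgroup G → Finset (Subgroup G)))
    rw [card_moved ((orb_inv b).mono hQY)] at h1
    rw [hc.cs.card_moved hQY] at h2
    nlinarith
  · obtain ⟨B1, hB1, B2, hB2, hne⟩ := one_lt_card.1 hk
    set S := F b \ {B1, B2} with hS
    have hfb := (hfix b (self_mem b)).1 (Fx_WW.mono hQ)
    have hsub : ({B1, B2} : Finset (Subgroup G)) ⊆ F b := by
      intro V hV
      rcases mem_insert.1 hV with rfl | hV
      · exact hB1
      · rw [mem_singleton.1 hV]; exact hB2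
    have hSc : S.card + 2 = (F b).card := by
      rw [← card_sdiff_add_card_eq_card hsub, card_pair hne]
    obtain ⟨U, hUY, hQU, hUS, -, hCS⟩ := hc.cs.multi hQY S
      (fun V hV => ((mF _ _).1 (mem_sdiff.1 hV).1).1) (fun V hV => hfb V (mem_sdiff.1 hV).1)
    generalize φ - S.card = ψ at hCS
    have m1 : B1 ∈ L \ S := mem_sdiff.2 ⟨((mF _ _).1 hB1).1, by simp [hS]⟩
    have m2 : B2 ∈ L \ S := mem_sdiff.2 ⟨((mF _ _).1 hB2).1, by simp [hS]⟩
    have hψ : 2 ≤ ψ := by
      rw [← hCS.fix Q hQU]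
      exact one_lt_card.2 ⟨B1, mem_filter.2 ⟨m1, hfb _ hB1⟩, B2, mem_filter.2 ⟨m2, hfb _ hB2⟩, hne⟩
    have hFg : ∀ g ∈ U, F (g • b) = S ∪ {g • B1, g • B2} := by
      intro g hg
      rw [hF g (hUY hg), ← sdiff_union_of_subset hsub, image_union,
        image_congr (g := id) fun V hV => hUS V hV g hg, image_id, image_insert, image_singleton]
    have hFS : ∀ g ∈ U, F (g • b) \ S = {g • B1, g • B2} := by
      intro g hg
      rw [hFg g hg, union_sdiff_cancel_left]
      rw [disjoint_insert_right, disjoint_singleton_right]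
      exact ⟨(mem_sdiff.1 (hCS.inv g hg _ m1)).2, (mem_sdiff.1 (hCS.inv g hg _ m2)).2⟩
    have hinj2 : ∀ y ∈ orb U b, ∀ y' ∈ orb U b, F y \ S = F y' \ S → y = y' := by
      intro y hy y' hy' e
      refine hinj y (orb_mono hUY b hy) y' (orb_mono hUY b hy') ?_
      obtain ⟨g, hg, rfl⟩ := mem_orb.1 hy
      obtain ⟨g', hg', rfl⟩ := mem_orb.1 hy'
      rw [hFS g hg, hFS g' hg'] at e
      rw [hFg g hg, hFg g' hg', e]
    have key : ∀ P : Subgroup G → Prop, (∀ V ∈ S, P V) → ∀ (T : Finset Ω) (T' : Finset (Subgroup G)),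
        (∀ y, y ∈ T ↔ y ∈ orb U b ∧ ∀ V ∈ F y, P V) → (∀ V, V ∈ T' ↔ V ∈ L \ S ∧ P V) →
        T.card = T'.card.choose 2 := by
      intro P hPS T T' mT mT'
      rw [← card_powersetCard]
      apply card_bij (fun y _ => F y \ S)
      · intro y hy
        rw [mT] at hy
        obtain ⟨g, hg, rfl⟩ := mem_orb.1 hy.1
        rw [mem_powersetCard]
        refine ⟨fun V hV => ?_, by
          rw [hFS g hg, card_pair fun e => hne (MulAction.injective g e)]⟩
        rw [mem_sdiff] at hV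
        exact (mT' _).2 ⟨mem_sdiff.2 ⟨((mF _ _).1 hV.1).1, hV.2⟩, hy.2 V hV.1⟩
      · intro y hy y' hy' e
        exact hinj2 y ((mT _).1 hy).1 y' ((mT _).1 hy').1 e
      · intro D hD
        rw [mem_powersetCard] at hD
        obtain ⟨C1, C2, hC, rfl⟩ := card_eq_two.1 hD.2
        have n1 := (mT' _).1 (hD.1 (mem_insert_self C1 {C2}))
        have n2 := (mT' _).1 (hD.1 (mem_insert_of_mem (mem_singleton_self C2)))
        obtain ⟨g, hg, rfl, rfl⟩ := hCS.two (by omega) m1 m2 n1.1 n2.1 hne.symm hC.symm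
        refine ⟨g • b, (mT _).2 ⟨orb_inv b g hg b (self_mem b), fun V hV => ?_⟩, hFS g hg⟩
        rw [hFg g hg, mem_union, mem_insert, mem_singleton] at hV
        rcases hV with hV | rfl | rfl
        · exact hPS V hV
        · exact n1.2
        · exact n2.2
    have k1 := key (fun _ => True) (fun _ _ => trivial) (orb U b) (L \ S) (by simp) (by simp)
    rw [hCS.card] at k1
    have k2 := key (Fx (Q : Subgroup G)) (fun V hV => hfb V (mem_sdiff.1 hV).1)
      ((orb U b).filter (Fx (Q : Subgroup G))) ((L \ S).filter (Fx (Q : Subgroup G)))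
      (fun y => by
        rw [mem_filter]
        exact and_congr_right fun hy => hfix y (orb_mono hUY b hy)) (fun V => mem_filter)
    change fx _ _ = (fx _ _).choose 2 at k2
    rw [hCS.fix Q hQU] at k2
    have k3 := card_eq ((orb_inv b).mono hQU)
    have k4 := dl_le_of_sub hCS.good (H.hp_le h.ha hUY) hQU ((orb_inv b).mono hUY) (orb_inv b)
      (orb_mono hUY b) (by
        intro y hy hf
        have : (F y \ S).Nonempty := by
          apply card_pos.1
          have := le_card_sdiff S (F y)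
          have := hcard y hy
          omega
        obtain ⟨V, hV⟩ := this
        rw [mem_sdiff, mF] at hV
        refine hCS.not_fx (mem_sdiff.2 ⟨hV.1.1, hV.2⟩) ((hCS.good.Fx_iff (hc.goodL hV.1.1)).2 ?_)
        exact (hCS.good.le_WW (hUY.trans YY_le) (Fx_YY.mono hUY) hf).trans hV.1.2)
    have k5 := H.bud3 h.ha hQY (orb_inv b) (orbY_sub h.hb h.ne)
    have k6 := hCS.lt
    have e1 := two_choose (p + ψ)
    have e2 := two_choose ψ
    rw [← k1, k3] at e1
    rw [← k2] at e2
    unfold dl at k4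
    change _ ≤ dl p (Q : Subgroup G) (orb Y b) at k4
    generalize fx (Q : Subgroup G) (orb U b) = f at *
    generalize tt p (Q : Subgroup G) (orb U b) = t at *
    push_cast at e1
    have hp' : (2 : ℤ) ≤ p := by exact_mod_cast hp2
    have hψ' : (2 : ℤ) ≤ ψ := by exact_mod_cast hψ
    have hψ2 : (ψ : ℤ) + 1 ≤ p := by exact_mod_cast k6
    have e3 : (p : ℤ) * (2 * t) = p * (p + 2 * ψ - 1) := by linarith
    have e4 : (2 * t : ℤ) = p + 2 * ψ - 1 := mul_left_cancel₀ (by omega) e3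
    have e5 : 2 * ((t : ℤ) * (p - 1)) = (p + 2 * ψ - 1) * (p - 1) := by rw [← e4]; ring
    nlinarith

theorem Ex.trans_line (h : Ex p X a0 a b) (H : Ctx p X a0) (hg : Good p (WW p X a b))
    (hc : Cy p X a0 a c φ) : CS p (WW p X a b) (LL p X a c) φ :=
  hc.cs.nofix hg WW_le fun _ hU hf => h.noline H hg hc hU ((hg.Fx_iff (hc.goodL hU)).1 hf)

theorem Ex.closed (h : Ex p X a0 a b) (H : Ctx p X a0) (hg : Good p (WW p X a b))
    (hc : c ∈ orb X a0) (hne : c ≠ a) (hf : Fx (WW p X a b) c) : c = b := by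
  have hle := hg.le_WW WW_le_X Fx_WW' hf
  rcases cy_or_ex (p := p) h.ha hc hne with ⟨φ, h1⟩ | h1
  · exact absurd hle (h.noline H hg h1 self_LL)
  · obtain ⟨Q, hQ⟩ := hg.ex
    have h2 := h.uniq H h1
    have h3 : WW p X a b = WW p X a c := by
      rw [WW_eq, WW_eq]; exact Op_St_eq h2 (by rw [← WW_eq]; exact hf)
    rcases inj_or_const (h.fixed H hQ).1 (fun y => ({WW p X a y} : Finset (Subgroup G)))
      (fun g hg y => by rw [image_singleton, WW_smY (YY_le_St hg)]) with h4 | h4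
    · exact h4 c h2 b (self_mem b) (by rw [h3])
    · obtain ⟨y, hy, hm⟩ := (H.goodY h.ha).moved (H.fixY h.ha h.hb h.ne) (hQ.trans WW_le)
      have h5 : WW p X a y = WW p X a b := singleton_injective (h4 y hy)
      exact absurd (Fx_WW.mono (by rw [h5]; exact hQ)) hm

end Cfsg.Agent.FPS
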