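import Cfsg.Agent.FPS.S1

/-! Step 2, first part: traces of exceptional points on the lines of a class. -/

set_option autoImplicit false
set_option linter.unusedSectionVars false

namespace Cfsg.Agent.FPS

open Classical Finset

variable {G : Type*} [Group G] [Fintype G] {Ω : Type*} [MulAction G Ω]

structure InU (p : ℕ) (X : Subgroup G) (a0 a b c : Ω) : Prop where
  hc : c ∈ orb X a0
  ne : c ≠ a
  mem : WW p X a c ∈ LL p X a b
  ne' : WW p X a c ≠ WW p X a b

structure BB (p : ℕ) (X : Subgroup G) (a0 b α a y : Ω) : Prop where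
  ha : a ∈ orb X a0
  ne : a ≠ b
  mem : WW p X b a ∈ LL p X b α
  inU : InU p X a0 a b y

variable {p : ℕ} [hp : Fact p.Prime] {X : Subgroup G} {a0 a b c α y : Ω} {φ : ℕ}

theorem InU.sm (h : InU p X a0 a b c) {g : G} (hg : g ∈ X) :
    InU p X a0 (g • a) (g • b) (g • c) where
  hc := orb_inv _ g hg _ h.hc
  ne := fun e => h.ne (MulAction.injective g e)
  mem := by rw [← WW_sm hg, ← LL_sm hg]; exact mem_image_of_mem _ h.mem
  ne' := by rw [← WW_sm hg, ← WW_sm hg]; exact fun e => h.ne' (MulAction.injective g e)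

theorem BB.sm (h : BB p X a0 b α a y) {g : G} (hg : g ∈ YY p X b) :
    BB p X a0 b α (g • a) (g • y) where
  ha := orb_inv _ g (YY_le hg) _ h.ha
  ne := fun e => h.ne (MulAction.injective g (e.trans (Fx_YY g hg).symm))
  mem := by rw [← WW_smY (YY_le_St hg)]; exact orb_inv _ g hg _ h.mem
  inU := by have := h.inU.sm (YY_le hg); rwa [Fx_YY g hg] at this

theorem Good.inv {Z : Subgroup G} (hZ : Good p Z) {C : Finset Ω}
    (h : ∀ Q : Sylow p G, (Q : Subgroup G) ≤ Z → Inv (Q : Subgroup G) C) : Inv Z C := by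
  let T : Subgroup G :=
    { carrier := {g | C.image (g • ·) = C}
      one_mem' := by simp
      mul_mem' := by
        intro g k hg hk
        change C.image ((g * k) • ·) = C
        conv_rhs => rw [← hg, ← hk, image_image]
        simp only [mul_smul]; rfl
      inv_mem' := by
        intro g hg
        change C.image (g⁻¹ • ·) = C
        conv_lhs => rw [← hg, image_image]
        simp [Function.comp_def] }
  have : Z ≤ T := hZ.le fun Q hQ g hg => image_inv (h Q hQ) hg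
  intro g hg x hx
  have h1 : C.image (g • ·) = C := this hg
  rw [← h1]; exact mem_image_of_mem _ hx

structure Sit (p : ℕ) (X : Subgroup G) (a0 b α c : Ω) (φ : ℕ) : Prop where
  H : Ctx p X a0
  cy : Cy p X a0 b α φ
  ex : Ex p X a0 b c
  good : Good p (WW p X b c)
  bb : ∃ a, BB p X a0 b α a c

theorem Sit.of_orb (S : Sit p X a0 b α c φ) (hy : y ∈ orb (YY p X b) c) : Sit p X a0 b α y φ := by
  obtain ⟨g, hg, rfl⟩ := mem_orb.1 hy
  obtain ⟨a, ha⟩ := S.bb
  exact ⟨S.H, S.cy, S.ex.smY (YY_le_St hg), by rw [← WW_smY (YY_le_St hg)]; exact S.good.sm g,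
    _, ha.sm hg⟩

theorem Sit.cs (S : Sit p X a0 b α c φ) : CS p (WW p X b c) (LL p X b α) φ :=
  S.ex.trans_line S.H S.good S.cy

theorem Sit.meet (S : Sit p X a0 b α c φ) {l : Subgroup G} (hl : l ∈ LL p X b α) :
    ∃ a, BB p X a0 b α a c ∧ WW p X b a = l := by
  obtain ⟨a, ha⟩ := S.bb
  obtain ⟨g, hg, rfl⟩ := S.cs.tr _ ha.mem l hl
  have := ha.sm (WW_le hg)
  rw [Fx_WW g hg] at this
  exact ⟨_, this, (WW_smY (YY_le_St (WW_le hg))).symm⟩

theorem Sit.cy1 (S : Sit p X a0 b α c φ) (h : BB p X a0 b α a c) : Cy p X a0 a b φ :=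
  (S.cy.of_mem h.ha h.ne h.mem).symm S.H

theorem Sit.csA (S : Sit p X a0 b α c φ) (h : BB p X a0 b α a c) :
    CS p (WW p X b a) ((LL p X a b).erase (WW p X a b)) (φ - 1) := by
  rw [WW_comm]; exact (S.cy1 h).erase self_LL

theorem BB.memA (h : BB p X a0 b α a c) : WW p X a c ∈ (LL p X a b).erase (WW p X a b) :=
  mem_erase.2 ⟨h.inU.ne', h.inU.mem⟩

theorem Sit.fxA (S : Sit p X a0 b α c φ) (h : BB p X a0 b α a c) {Q : Sylow p G}
    (hQ : (Q : Subgroup G) ≤ WW p X b a) :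
    Fx (Q : Subgroup G) (WW p X a c) ↔ Fx (Q : Subgroup G) c := by
  rw [Fx_iff_le ((S.cy1 h).goodL h.inU.mem), le_WW]
  rw [le_WW] at hQ
  tauto

theorem Sit.Vpi (S : Sit p X a0 b α c φ) (h : BB p X a0 b α a c) :
    Op p (St (WW p X b a) (WW p X a c)) = Op p (St (WW p X b c) (WW p X b a)) := by
  refine Op_congr fun Q => ?_
  rw [le_St, le_St, Fx_iff_le ((S.cy1 h).goodL h.inU.mem), Fx_iff_le (S.cy.goodL h.mem)]
  simp only [le_WW]
  tauto

theorem Sit.csV (S : Sit p X a0 b α c φ) (h : BB p X a0 b α a c) :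
    CS p (Op p (St (WW p X b a) (WW p X a c))) ((LL p X b α).erase (WW p X b a)) (φ - 1) := by
  rw [S.Vpi h]; exact S.cs.one' S.cy.pos h.mem

theorem Sit.cs12 (S : Sit p X a0 b α c φ) (hφ : 2 ≤ φ) (h : BB p X a0 b α a c) {l : Subgroup G}
    (hl : l ∈ (LL p X b α).erase (WW p X b a)) :
    CS p (Op p (St (WW p X b a) l)) ((LL p X a b).erase (WW p X a b)) (φ - 1) := by
  have h1 := S.cy.erase h.mem
  have h2 := S.csA h
  obtain ⟨Q, hQ⟩ := h1.exQ (by omega) hl
  refine h2.nofix (good_Op hQ) (Op_le.trans St_le) fun m hm hf => ?_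
  obtain ⟨Q', hQ'⟩ := h2.exQ (by omega) hm
  rcases h1.max (by omega) hl (good_Op hQ')
    ((good_Op hQ).le_Op (le_St.2 ⟨Op_le.trans St_le, hf⟩)) (Op_le.trans St_le) with e | e
  · obtain ⟨z, hz, rfl⟩ := h2.tr _ h.memA m hm
    refine (S.csV h).not_fx (h1.inv _ ((WW p X b a).inv_mem hz) _ hl) ?_
    rw [← Fx_sm z, Op_St_sm hz, smul_inv_smul, e]
    exact Fx_Op
  · exact h2.not_fx hm (by rw [← e]; exact Fx_Op)

theorem Op_St_comm {l m : Subgroup G} (hl : Good p l) (hm : Good p m) :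
    Op p (St l m) = Op p (St m l) := Op_congr fun Q => by
  rw [le_St, le_St, Fx_iff_le hl, Fx_iff_le hm, and_comm]

theorem Sit.csL (S : Sit p X a0 b α c φ) (hφ : 2 ≤ φ) {a1 a2 : Ω} (h1 : BB p X a0 b α a1 c)
    (h2 : BB p X a0 b α a2 c) (hne : WW p X b a2 ≠ WW p X b a1) :
    CS p (Op p (St (WW p X b a1) (WW p X b a2)))
      (orb (Op p (St (WW p X b a1) (WW p X b a2))) c) (φ - 1) := by
  have g1 := S.cy.goodL h1.mem
  have g2 := S.cy.goodL h2.mem
  have c1 := S.cs12 hφ h1 (mem_erase.2 ⟨hne, h2.mem⟩)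
  have c2 := S.cs12 hφ h2 (mem_erase.2 ⟨hne.symm, h1.mem⟩)
  rw [← Op_St_comm g1 g2] at c2
  have l1 : Op p (St (WW p X b a1) (WW p X b a2)) ≤ WW p X b a1 := Op_le.trans St_le
  have l2 : Op p (St (WW p X b a1) (WW p X b a2)) ≤ WW p X b a2 := by
    rw [Op_St_comm g1 g2]; exact Op_le.trans St_le
  set W := Op p (St (WW p X b a1) (WW p X b a2)) with hW
  have e4 : Op p (St W (WW p X a1 c)) = Op p (St W (WW p X a2 c)) := Op_congr fun Q => by
    rw [le_St, le_St]
    exact and_congr_right fun hQ => by rw [S.fxA h1 (hQ.trans l1), S.fxA h2 (hQ.trans l2)]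
  have eS : St W c = St W (WW p X a1 c) := by
    apply le_antisymm
    · intro g hg
      rw [mem_St] at hg ⊢
      refine ⟨hg.1, ?_⟩
      rw [WW_sm (WW_le_X (l1 hg.1)), hg.2, Fx_WW g (l1 hg.1)]
    · intro g hg
      rw [mem_St] at hg ⊢
      refine ⟨hg.1, ?_⟩
      have e5 : g • WW p X a2 c = WW p X a2 c := by
        refine c2.only (by omega) h2.memA (c2.inv g hg.1 _ h2.memA) ?_
        have : Fx (g • Op p (St W (WW p X a2 c))) (g • WW p X a2 c) := (Fx_sm g).2 Fx_Op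
        rwa [← e4, Op_St_sm hg.1, hg.2, e4] at this
      by_contra hgc
      have hX : g • c ∈ orb X a0 := orb_inv _ g (WW_le_X (l1 hg.1)) _ S.ex.hb
      have k : ∀ {a}, BB p X a0 b α a c → g • WW p X a c = WW p X a c →
          WW p X c (g • c) = WW p X a c := by
        intro a h e
        have y1 := ((S.cy1 h).of_mem h.inU.hc h.inU.ne h.inU.mem).symm S.H
        rw [WW_comm (a := a)]
        refine y1.line S.H hX hgc ?_
        rw [WW_comm, ← e]
        exact (Fx_sm g).2 Fx_WW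
      have e6 : WW p X a1 c = WW p X a2 c := by rw [← k h1 hg.2, k h2 e5]
      have c3 := S.csV h1
      refine c3.not_fx (mem_erase.2 ⟨hne, h2.mem⟩) ((c3.good.Fx_iff g2).2 ?_)
      have l3 : Op p (St (WW p X b a1) (WW p X a1 c)) ≤ WW p X b a1 := Op_le.trans St_le
      refine c3.good.le_WW (l3.trans WW_le_X) (Fx_WW'.mono l3) (Fx_WW'.mono ?_ (V := WW p X a2 c))
      rw [← e6]
      exact (c3.good.Fx_iff ((S.cy1 h1).goodL h1.inU.mem)).1 Fx_Op
  obtain ⟨Q, hQ⟩ := c1.good.ex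
  have r := c1.ratio_orb h1.memA c (fun Q' hQ' => S.fxA h1 (hQ'.trans l1)) hQ
  have o1 := orbstab W c
  have o2 := orbstab W (WW p X a1 c)
  rw [c1.orb_eq h1.memA, c1.card, ← eS, o1] at o2
  have o3 := Nat.eq_of_mul_eq_mul_right Nat.card_pos o2
  rw [card_eq ((orb_inv c).mono hQ), r] at o3
  have ht : tt p (Q : Subgroup G) (orb W c) = 1 := by
    apply Nat.eq_of_mul_eq_mul_left (n := p + (φ - 1)) (by have := hp.out.pos; omega)
    rw [mul_one, add_mul, add_comm]
    exact o3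
  have := CS.of_orb c1.good hQ ht
  rwa [r, ht, mul_one] at this

/-- for `φ ≥ 3` the trace map is not injective -/
theorem Sit.three (S : Sit p X a0 b α c φ) (hφ : 3 ≤ φ) {a1 a2 : Ω} (h1 : BB p X a0 b α a1 c)
    (h2 : BB p X a0 b α a2 c) (hne : WW p X b a2 ≠ WW p X b a1) :
    ∃ y ∈ orb (YY p X b) c, y ≠ c ∧ ∀ a, BB p X a0 b α a c → BB p X a0 b α a y := by
  have g1 := S.cy.goodL h1.mem
  have g2 := S.cy.goodL h2.mem
  have cL := S.csL (by omega) h1 h2 hne
  have c3 := (S.cy.erase h1.mem).one' (by omega) (mem_erase.2 ⟨hne, h2.mem⟩)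
  have l1 : Op p (St (WW p X b a1) (WW p X b a2)) ≤ WW p X b a1 := Op_le.trans St_le
  have l2 : Op p (St (WW p X b a1) (WW p X b a2)) ≤ WW p X b a2 := by
    rw [Op_St_comm g1 g2]; exact Op_le.trans St_le
  generalize Op p (St (WW p X b a1) (WW p X b a2)) = W at cL c3 l1 l2
  obtain ⟨y, hy, hyc⟩ : ∃ y ∈ orb W c, y ≠ c :=
    exists_mem_ne (by rw [cL.card]; have := hp.out.two_le; omega) c
  refine ⟨y, orb_mono (l1.trans WW_le) c hy, hyc, fun a h => ?_⟩
  have key : ∀ V : Subgroup G, V ≤ WW p X b a → y ∈ orb V c → BB p X a0 b α a y := by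
    intro V hV hyV
    obtain ⟨g, hg, rfl⟩ := mem_orb.1 hyV
    have := h.sm (WW_le (hV hg))
    rwa [Fx_WW g (hV hg)] at this
  by_cases e1 : WW p X b a = WW p X b a1
  · exact key W (by rw [e1]; exact l1) hy
  by_cases e2 : WW p X b a = WW p X b a2
  · exact key W (by rw [e2]; exact l2) hy
  have m3 := mem_erase.2 ⟨e2, mem_erase.2 ⟨e1, h.mem⟩⟩
  obtain ⟨Q, hQ⟩ := c3.exQ (by omega) m3
  have c4 := cL.nofix (good_Op hQ) (Op_le.trans St_le) (by
    intro z hz hf
    obtain ⟨Q', hQ'⟩ := cL.exQ (by omega) hz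
    rcases c3.max (by omega) m3 (good_Op hQ')
      ((good_Op hQ).le_Op (le_St.2 ⟨Op_le.trans St_le, hf⟩)) (Op_le.trans St_le) with e | e
    · have := cL.ratio c3 hz m3 fun Q'' hQ'' => by
        constructor
        · intro hf'
          have a1 : (Q'' : Subgroup G) ≤ Op p (St W z) := le_Op.2 (le_St.2 ⟨hQ'', hf'⟩)
          rw [e] at a1
          exact Fx_Op.mono a1
        · intro hf'
          have a1 : (Q'' : Subgroup G) ≤ Op p (St W (WW p X b a)) := le_Op.2 (le_St.2 ⟨hQ'', hf'⟩)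
          rw [← e] at a1
          exact Fx_Op.mono a1
      omega
    · exact cL.not_fx hz (by rw [← e]; exact Fx_Op))
  refine key _ ((c4.good.Fx_iff (S.cy.goodL h.mem)).1 Fx_Op) ?_
  rw [c4.orb_eq (self_mem c)]
  exact hy

end Cfsg.Agent.FPS
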