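import Cfsg.Agent.FPS.S2a

/-! Step 2, second part: no exceptional pair inside the span of a class of lines. -/

set_option autoImplicit false
set_option linter.unusedSectionVars false

namespace Cfsg.Agent.FPS

open Classical Finset

variable {G : Type*} [Group G] [Fintype G] {Ω : Type*} [MulAction G Ω]
variable {p : ℕ} [hp : Fact p.Prime] {X : Subgroup G} {a0 a b c α y : Ω} {φ : ℕ}

theorem ratio_sum {Z : Subgroup G} {Q : Sylow p G} (hQ : (Q : Subgroup G) ≤ Z) (k : ℕ)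
    (C : Finset Ω) (hC : Inv Z C) :
    (∀ y ∈ C, fx (Q : Subgroup G) (orb Z y) = k * tt p (Q : Subgroup G) (orb Z y)) →
      fx (Q : Subgroup G) C = k * tt p (Q : Subgroup G) C := by
  refine orb_ind (Z := Z) (fun C =>
    (∀ y ∈ C, fx (Q : Subgroup G) (orb Z y) = k * tt p (Q : Subgroup G) (orb Z y)) →
      fx (Q : Subgroup G) C = k * tt p (Q : Subgroup G) C) ?_ ?_ C hC
  · intro _; simp [tt, fx]
  · intro C x hC hx ih hn
    rw [tt_split (hC.mono hQ) ((orb_inv x).mono hQ) (orb_sub hC hx), fx_split _ (orb_sub hC hx),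
      ih fun y hy => hn y (mem_sdiff.1 hy).1, hn x hx, mul_add]

theorem Good.sup {U V : Subgroup G} (hU : Good p U) (hV : Good p V) : Good p (U ⊔ V) := by
  obtain ⟨Q, hQ⟩ := hU.ex
  exact ⟨le_antisymm Op_le (sup_le (hU.le_Op le_sup_left) (hV.le_Op le_sup_right)), Q,
    hQ.trans le_sup_left⟩

theorem Inv.sup {U V : Subgroup G} {C : Finset Ω} (hU : Inv U C) (hV : Inv V C) :
    Inv (U ⊔ V) C := by
  let T : Subgroup G :=
    { carrier := {g | C.image (g • ·) = C}
      one_mem' := by simp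
      mul_mem' := by
        intro g k hg hk
        change C.image ((g * k) • ·) = C
        conv_rhs => rw [← hg, ← hk, image_image]
        simp only [mul_smul]; rfl
      inv_mem' := by
        intro g hg
        change C.image (g⁻¹ • ·) = C
        conv_lhs => rw [← hg, image_image]
        simp [Function.comp_def] }
  have : U ⊔ V ≤ T := sup_le (fun g hg => image_inv hU hg) (fun g hg => image_inv hV hg)
  intro g hg x hx
  have h1 : C.image (g • ·) = C := this hg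
  rw [← h1]; exact mem_image_of_mem _ hx

theorem fx_mono (V : Subgroup G) {C D : Finset Ω} (h : D ⊆ C) : fx V D ≤ fx V C :=
  card_le_card (filter_subset_filter _ h)

theorem Sit.pair (S : Sit p X a0 b α c φ) {Q : Sylow p G} (hQ : (Q : Subgroup G) ≤ WW p X b c) :
    2 ≤ φ ∧ ∃ a1 a2, BB p X a0 b α a1 c ∧ BB p X a0 b α a2 c ∧ WW p X b a2 ≠ WW p X b a1 ∧
      (Q : Subgroup G) ≤ WW p X b a1 ∧ (Q : Subgroup G) ≤ WW p X b a2 := by
  obtain ⟨l1, hl1, hf1⟩ := S.cs.exfix S.cy.pos hQ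
  obtain ⟨a1, h1, rfl⟩ := S.meet hl1
  have q1 := (Fx_iff_le (S.cy.goodL hl1)).1 hf1
  have hφ : 2 ≤ φ := by
    have h2 := (S.csA h1).fix Q q1
    have h3 : 0 < fx (Q : Subgroup G) ((LL p X a1 b).erase (WW p X a1 b)) :=
      fx_pos.2 ⟨_, h1.memA, (S.fxA h1 q1).2 (Fx_WW.mono hQ)⟩
    omega
  obtain ⟨l2, hl2, hf2⟩ := (S.cy.erase hl1).exfix (by omega) q1
  rw [mem_erase] at hl2
  obtain ⟨a2, h2, rfl⟩ := S.meet hl2.2
  exact ⟨hφ, a1, a2, h1, h2, hl2.1, q1, (Fx_iff_le (S.cy.goodL hl2.2)).1 hf2⟩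

theorem Sit.ratioE (S : Sit p X a0 b α c φ) {l : Subgroup G} (hl : l ∈ LL p X b α)
    {Q : Sylow p G} (hQ : (Q : Subgroup G) ≤ l) (hy : y ∈ orb (YY p X b) c) :
    fx (Q : Subgroup G) (orb l y) = (φ - 1) * tt p (Q : Subgroup G) (orb l y) := by
  have S' := S.of_orb hy
  obtain ⟨a, h, rfl⟩ := S'.meet hl
  exact (S'.csA h).ratio_orb h.memA y (fun Q' hQ' => S'.fxA h hQ') hQ

theorem Sit.orb_card (S : Sit p X a0 b α c φ) {l m : Subgroup G} (hl : l ∈ LL p X b α)
    (hm : m ∈ LL p X b α) : (orb m c).card = (orb l c).card := by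
  obtain ⟨g, hg, rfl⟩ := S.cs.tr l hl m hm
  conv_lhs => rw [← Fx_WW g hg]
  rw [orb_sm, card_image_of_injective _ (MulAction.injective g)]

theorem Sit.not_two (S : Sit p X a0 b α c 2) : False := by
  obtain ⟨Q, hQ⟩ := S.good.ex
  obtain ⟨-, a1, a2, h1, h2, hne, q1, q2⟩ := S.pair hQ
  have hQY := hQ.trans WW_le
  have r0 := ratio_sum q1 (2 - 1) (orb (YY p X b) c) ((orb_inv c).mono WW_le)
    fun y hy => S.ratioE h1.mem q1 hy
  have r1 := S.ratioE h1.mem q1 (self_mem c)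
  have t2 := (S.ex.fixed S.H hQ).2.1
  have b3 := S.H.bud3 S.ex.ha hQY (orb_inv c) (orbY_sub S.ex.hb S.ex.ne)
  have nd := not_dvd_orb hQY (Fx_WW.mono hQ)
  have p3 := S.cs.lt
  have cE := card_eq ((orb_inv c).mono hQY)
  have c1 := card_eq ((orb_inv c).mono q1)
  have s1 : orb (WW p X b a1) c ⊆ orb (YY p X b) c := orb_mono WW_le c
  have s2 : orb (WW p X b a2) c ⊆ orb (YY p X b) c := orb_mono WW_le c
  have m1 := fx_mono (Q : Subgroup G) s1
  have m2 : 0 < fx (Q : Subgroup G) (orb (WW p X b a1) c) := fx_pos.2 ⟨c, self_mem c, Fx_WW.mono hQ⟩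
  have o12 := S.orb_card h1.mem h2.mem
  rw [Nat.add_one_sub_one, one_mul] at r0 r1
  have ht : tt p (Q : Subgroup G) (orb (YY p X b) c) = 2 := by
    by_contra h3
    unfold dl at b3
    rw [cE] at nd
    rw [r0] at b3 nd
    generalize tt p (Q : Subgroup G) (orb (YY p X b) c) = t at *
    have h4 : (3 : ℤ) ≤ t := by exact_mod_cast (show 3 ≤ t by omega)
    have h5 : (3 : ℤ) ≤ p := by exact_mod_cast p3
    have h6 : (p : ℤ) = 3 := by nlinarith
    have h7 : p = 3 := by exact_mod_cast h6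
    have h8 : t = 3 := by rw [h6] at b3; omega
    exact nd (by rw [h7, h8]; norm_num)
  rw [ht] at r0 cE
  have g1 := S.cy.goodL h1.mem
  have g2 := S.cy.goodL h2.mem
  rcases Nat.lt_or_ge (fx (Q : Subgroup G) (orb (WW p X b a1) c)) 2 with h3 | h3
  · have cL := (S.csL le_rfl h1 h2 hne).card
    have l1 : Op p (St (WW p X b a1) (WW p X b a2)) ≤ WW p X b a1 := Op_le.trans St_le
    have l2 : Op p (St (WW p X b a1) (WW p X b a2)) ≤ WW p X b a2 := by
      rw [Op_St_comm g1 g2]; exact Op_le.trans St_le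
    have k1 : (orb (WW p X b a1) c).card = p + 1 := by
      rw [c1, ← r1, show fx (Q : Subgroup G) (orb (WW p X b a1) c) = 1 by omega]; ring
    have e1 := eq_of_subset_of_card_le (orb_mono l1 c) (by omega)
    have e2 := eq_of_subset_of_card_le (orb_mono l2 c) (by omega)
    have i1 : Inv (WW p X b a1 ⊔ WW p X b a2) (orb (WW p X b a1) c) :=
      (orb_inv c).sup (by rw [← e1, e2]; exact orb_inv c)
    rcases S.cy.max h1.mem (g1.sup g2) le_sup_left (sup_le WW_le WW_le) with e | e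
    · refine (S.cy.erase h2.mem).not_fx (mem_erase.2 ⟨hne.symm, h1.mem⟩) ((g2.Fx_iff g1).2 ?_)
      exact le_sup_right.trans e.le
    · rw [e] at i1
      have := card_le_card (orb_sub i1 (self_mem c))
      omega
  · have k1 : (orb (WW p X b a1) c).card = (orb (YY p X b) c).card := by
      rw [c1, cE, ← r1, show fx (Q : Subgroup G) (orb (WW p X b a1) c) = 2 by omega, r0]
    obtain ⟨d, hd, hdc⟩ : ∃ d ∈ (orb (YY p X b) c).filter (Fx (Q : Subgroup G)), d ≠ c :=
      exists_mem_ne (by change 1 < fx _ _; omega) c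
    rw [mem_filter] at hd
    have key : ∀ {a}, BB p X a0 b α a c → (Q : Subgroup G) ≤ WW p X b a →
        orb (WW p X b a) c = orb (YY p X b) c → Fx (Op p (St (WW p X b c) (WW p X b a))) d := by
      intro a h q e
      obtain ⟨g, hg, e'⟩ := mem_orb.1 (show d ∈ orb (WW p X b a) c by rw [e]; exact hd.1)
      have h' := h.sm (WW_le hg)
      rw [Fx_WW g hg, e'] at h'
      have f1 := ((S.of_orb hd.1).fxA h' q).2 hd.2
      have f2 := (S.fxA h q).2 (Fx_WW.mono hQ)
      have f3 : fx (Q : Subgroup G) ((LL p X a b).erase (WW p X a b)) ≤ 1 := ((S.csA h).fix Q q).le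
      have e4 : WW p X a c = WW p X a d :=
        card_le_one.1 f3 _ (mem_filter.2 ⟨h.memA, f2⟩) _ (mem_filter.2 ⟨h'.memA, f1⟩)
      rw [← S.Vpi h]
      refine Fx_WW.mono (V := WW p X a d) ?_
      rw [← e4]
      exact ((S.csV h).good.Fx_iff ((S.cy1 h).goodL h.inU.mem)).1 Fx_Op
    have v1 := key h1 q1 (eq_of_subset_of_card_le s1 k1.ge)
    have v2 := key h2 q2 (eq_of_subset_of_card_le s2 (by omega))
    have u1 := S.cs.one' S.cy.pos h1.mem
    have u2 := S.cs.one' S.cy.pos h2.mem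
    rcases S.cs.max S.cy.pos h1.mem (good_Op (le_St.2 ⟨hQ, hd.2⟩))
      (u1.good.le_Op (le_St.2 ⟨Op_le.trans St_le, v1⟩)) (Op_le.trans St_le) with e | e
    · refine u2.not_fx (mem_erase.2 ⟨hne.symm, h1.mem⟩) 
        ((Fx_Op (p := p) (Z := WW p X b c) (x := WW p X b a1)).mono ?_)
      rw [← e]
      exact u2.good.le_Op (le_St.2 ⟨Op_le.trans St_le, v2⟩)
    · have hd' := S.ex.of_orb hd.1
      exact hdc (S.ex.closed S.H S.good hd'.hb hd'.ne (by rw [← e]; exact Fx_Op))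

/-- Lemma K -/
theorem lemK (H : Ctx p X a0) (h : Cy p X a0 α b φ) (hU : InU p X a0 α b c) (hE : Ex p X a0 b c)
    (hE' : Ex p X a0 b y) : InU p X a0 α b y := by
  have hy := hE.uniq H hE'
  have h' := h.symm H
  have hB : BB p X a0 b α α c := ⟨h.ha, h.ne.symm, self_LL, hU⟩
  by_cases hg : ∃ Q : Sylow p G, (Q : Subgroup G) ≤ WW p X b c
  · obtain ⟨Q, hQ⟩ := hg
    have S : Sit p X a0 b α c φ := ⟨H, h', hE, good_WW hQ, α, hB⟩
    let B : Ω → Finset Ω := fun y => (orb X a0).filter (fun a => BB p X a0 b α a y)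
    have mB : ∀ y a, a ∈ B y ↔ BB p X a0 b α a y := fun y a => by
      rw [mem_filter]; exact ⟨fun h => h.2, fun h => ⟨h.ha, h⟩⟩
    have hF : ∀ g ∈ YY p X b, ∀ y, B (g • y) = (B y).image (g • ·) := by
      intro g hg y
      ext a
      rw [mB, mem_image]
      constructor
      · intro h1
        refine ⟨g⁻¹ • a, (mB _ _).2 ?_, smul_inv_smul _ _⟩
        simpa using h1.sm ((YY p X b).inv_mem hg)
      · rintro ⟨a', h1, rfl⟩
        exact ((mB _ _).1 h1).sm hg
    rcases inj_or_const (hE.fixed H hQ).1 B hF with h1 | h1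
    · exfalso
      obtain ⟨hφ, a1, a2, h2, h3, hne, -, -⟩ := S.pair hQ
      rcases Nat.lt_or_ge φ 3 with h4 | h4
      · obtain rfl : φ = 2 := by omega
        exact S.not_two
      · obtain ⟨z, hz, hzc, h5⟩ := S.three h4 h2 h3 hne
        refine hzc (h1 c (self_mem c) z hz (eq_of_subset_of_card_le
          (fun a ha => (mB _ _).2 (h5 a ((mB _ _).1 ha))) ?_)).symm
        obtain ⟨g, hg, rfl⟩ := mem_orb.1 hz
        rw [hF g hg, card_image_of_injective _ (MulAction.injective g)]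
    · exact ((mB _ _).1 (by rw [h1 y hy]; exact (mB _ _).2 hB)).inU
  · obtain ⟨Q, hQ⟩ := h'.good.ex
    have hQY := hQ.trans WW_le
    have nf : ∀ z ∈ orb (YY p X b) c, ¬ Fx (Q : Subgroup G) z := by
      intro z hz hf
      obtain ⟨g, hg', rfl⟩ := mem_orb.1 hz
      refine hg ⟨g⁻¹ • Q, ?_⟩
      rw [coe_sm, ← le_sm_iff, WW_smY (YY_le_St hg')]
      exact le_WW.2 ⟨(le_YY.1 hQY).1, (le_YY.1 hQY).2, hf⟩
    have f0 : fx (Q : Subgroup G) (orb (YY p X b) c) = 0 := by
      by_contra h0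
      obtain ⟨z, hz, hf⟩ := fx_pos.1 (Nat.pos_of_ne_zero h0)
      exact nf z hz hf
    have b3 := H.bud3 hE.ha hQY (orb_inv c) (orbY_sub hE.hb hE.ne)
    have cE := card_eq ((orb_inv c).mono hQY)
    unfold dl at b3
    rw [f0] at b3 cE
    have t1 : tt p (Q : Subgroup G) (orb (YY p X b) c) ≤ 1 := by
      by_contra h2
      have h4 : (2 : ℤ) ≤ tt p (Q : Subgroup G) (orb (YY p X b) c) := by
        exact_mod_cast (show 2 ≤ tt p (Q : Subgroup G) (orb (YY p X b) c) by omega)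
      have h5 : (2 : ℤ) ≤ p := by exact_mod_cast hp.out.two_le
      push_cast at b3
      nlinarith
    have s1 : orb (WW p X b α) c ⊆ orb (YY p X b) c := orb_mono WW_le c
    have h2 := le_card_moved ((orb_inv c).mono hQ) ⟨c, self_mem c⟩ fun z hz => nf z (s1 hz)
    have e := eq_of_subset_of_card_le s1 (by nlinarith)
    rw [← e] at hy
    obtain ⟨g, hg', rfl⟩ := mem_orb.1 hy
    have := hU.sm (WW_le_X hg')
    rwa [Fx_WW g hg', Fx_WW' g hg'] at this

theorem step2 (H : Ctx p X a0) (h : Cy p X a0 α b φ) (hU : InU p X a0 α b c) :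
    ¬ Ex p X a0 b c := by
  intro hE
  obtain ⟨g, hg, e⟩ := orb_tr hE.ha (self_mem a0)
  have hE0 := hE.sm hg
  rw [e] at hE0
  have := conn H.prim (Ex p X a0) (fun g hg x y h => h.sm hg) hE0.hb hE0.ne hE0
    {x | x ∈ orb X a0 ∧ x ≠ α ∧ WW p X α x ∈ LL p X α b ∧ ∃ y, InU p X a0 α x y ∧ Ex p X a0 x y}
    (by
      rintro x ⟨h1, h2, h3, y, h4, h5⟩ z hz
      have h6 := lemK H (h.of_mem h1 h2 h3) h4 h5 hz
      have h7 := h6.mem
      rw [LL_eq h3] at h7
      exact ⟨h6.hc, h6.ne, h7, x, ⟨h1, h2, by rw [LL_eq h7]; exact h3, h6.ne'.symm⟩, hz.symm H⟩)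
    h.hb ⟨h.hb, h.ne, self_LL, c, hU, hE⟩ α h.ha
  exact this.2.1 rfl

end Cfsg.Agent.FPS
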