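import Cfsg.Agent.FPS.S2b

/-! Step 3: the lines of minimal type form a linear space, which is impossible. -/

set_option autoImplicit false
set_option linter.unusedSectionVars false

namespace Cfsg.Agent.FPS

open Classical Finset

variable {G : Type*} [Group G] [Fintype G] {Ω : Type*} [MulAction G Ω]
variable {p : ℕ} [hp : Fact p.Prime] {X : Subgroup G} {a0 a b c d : Ω} {φ : ℕ}

/-- `φ` is the least type of a line -/
structure Mn (p : ℕ) (X : Subgroup G) (a0 : Ω) (φ : ℕ) : Prop where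
  H : Ctx p X a0
  ex : ∃ a b, Cy p X a0 a b φ
  min : ∀ a b ψ, Cy p X a0 a b ψ → φ ≤ ψ

/-- three collinear points -/
theorem Cy.line' (h : Cy p X a0 a b φ) (H : Ctx p X a0) (hc : c ∈ orb X a0) (hne : c ≠ b)
    (e : WW p X a c = WW p X a b) : WW p X b c = WW p X b a :=
  (h.symm H).line H hc hne (by rw [WW_comm, ← e]; exact Fx_WW)

theorem Mn.inU (M : Mn p X a0 φ) (h : Cy p X a0 a b φ) (hU : InU p X a0 a b c) :
    WW p X b c ∈ LL p X b a := by
  have H := M.H
  have hcb : c ≠ b := fun e => hU.ne' (by rw [e])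
  obtain ⟨ψ, h1⟩ := (cy_or_ex (p := p) h.hb hU.hc hcb).resolve_right (step2 H h hU)
  have h' := h.symm H
  by_contra hcon
  have h2 : CS p (WW p X a b) (LL p X b c) ψ := by
    refine h1.cs.nofix h.good WW_le' fun U hUm hf => ?_
    rw [WW_comm] at hf
    rcases h'.max self_LL (h1.goodL hUm) ((h'.good.Fx_iff (h1.goodL hUm)).1 hf) (LL_le hUm)
      with e | e
    · rw [e] at hUm
      exact hcon (by rw [LL_eq hUm]; exact self_LL)
    · exact h1.cs.not_fx hUm fun g hg => by rw [e]; exact sm_self hg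
  have h3 := (h.erase self_LL).ratio h2 (mem_erase.2 ⟨hU.ne', hU.mem⟩) self_LL fun Q hQ => by
    rw [Fx_iff_le (h.goodL hU.mem), Fx_iff_le h1.good, le_WW, le_WW]
    rw [le_WW] at hQ
    exact ⟨fun k => ⟨k.1, hQ.2.2, k.2.2⟩, fun k => ⟨k.1, hQ.2.1, k.2.2⟩⟩
  have := M.min _ _ _ h1
  have := h.pos
  omega

def Sg (p : ℕ) (X : Subgroup G) (a b c : Ω) : Prop := c = a ∨ WW p X a c ∈ LL p X a b

theorem Mn.swap (M : Mn p X a0 φ) (h : Cy p X a0 a b φ) (hc : c ∈ orb X a0)
    (hs : Sg p X a b c) : Sg p X b a c := by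
  by_cases e1 : c = a
  · right; rw [e1]; exact self_LL
  by_cases e2 : c = b
  · exact Or.inl e2
  have h1 := hs.resolve_left e1
  right
  by_cases e3 : WW p X a c = WW p X a b
  · rw [h.line' M.H hc e2 e3]; exact self_LL
  · exact M.inU h ⟨hc, e1, h1, e3⟩

theorem Sg.sm (hs : Sg p X a b c) {g : G} (hg : g ∈ YY p X a) : Sg p X a b (g • c) := by
  rcases hs with e | e
  · left; rw [e]; exact Fx_YY g hg
  · right; rw [← WW_smY (YY_le_St hg)]; exact orb_inv _ g hg _ e

theorem Mn.uniq (M : Mn p X a0 φ) (h : Cy p X a0 a b φ) (h' : Cy p X a0 a c φ) :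
    WW p X a c ∈ LL p X a b := by
  have H := M.H
  by_contra hcon
  obtain ⟨Q, hQ⟩ := h.good.ex
  obtain ⟨U, hU, hf⟩ := h'.cs.exfix h'.pos (hQ.trans WW_le)
  have hQU := (Fx_iff_le (h'.goodL hU)).1 hf
  obtain ⟨g, hg, rfl⟩ := mem_LL.1 hU
  have h2 : Cy p X a0 a (g • c) φ := by
    have := h'.sm (YY_le hg); rwa [Fx_YY g hg] at this
  have hcon' : WW p X a (g • c) ∉ LL p X a b := fun k =>
    hcon (by rw [← LL_eq k, LL_eq hU]; exact self_LL)
  generalize g • c = d at *
  have hdb : d ≠ b := fun e => hcon' (by rw [e]; exact self_LL)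
  have hg : Good p (WW p X b d) :=
    good_WW (le_WW.2 ⟨(le_WW.1 hQ).1, (le_WW.1 hQ).2.2, (le_WW.1 hQU).2.2⟩)
  have hfa : Fx (WW p X b d) a := by
    intro k hk
    have hka : k • a ∈ orb X a0 := orb_inv _ k (WW_le_X hk) _ h.ha
    have s1 := M.swap (h.symm H) hka ((M.swap h h.ha (Or.inl rfl)).sm (WW_le hk))
    have s2 := M.swap (h2.symm H) hka ((M.swap h2 h.ha (Or.inl rfl)).sm (WW_le' hk))
    by_contra hne
    exact hcon' (by rw [← LL_eq (s1.resolve_left hne), LL_eq (s2.resolve_left hne)]; exact self_LL)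
  rcases cy_or_ex (p := p) h.hb h2.hb hdb with ⟨ψ, h3⟩ | h3
  · have e1 := h3.line H h.ha h.ne.symm hfa
    have e2 := h.line H h2.hb h2.ne (by rw [WW_comm, e1]; exact Fx_WW)
    exact hcon' (by rw [e2]; exact self_LL)
  · exact h2.ne (h3.closed H hg h.ha h.ne.symm hfa).symm

theorem Mn.all (M : Mn p X a0 φ) (ha : a ∈ orb X a0) (hb : b ∈ orb X a0) (hne : b ≠ a) :
    Cy p X a0 a b φ := by
  have H := M.H
  have tr : ∀ x ∈ orb X a0, ∃ y, Cy p X a0 x y φ := by
    intro x hx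
    obtain ⟨u, v, h⟩ := M.ex
    obtain ⟨g, hg, rfl⟩ := orb_tr h.ha hx
    exact ⟨_, h.sm hg⟩
  obtain ⟨b0, h0⟩ := tr a0 (self_mem a0)
  obtain ⟨c, h⟩ := tr a ha
  have := conn H.prim (fun x y => Cy p X a0 x y φ) (fun g hg x y h => h.sm hg) h0.hb h0.ne h0
    {x | Sg p X a c x} (by
      intro x hx y hxy
      by_cases e : x = a
      · subst e; exact Or.inr (M.uniq h hxy)
      · have h1 := hx.resolve_left e
        have h2 := h.of_mem hxy.ha e h1
        have h3 := M.swap (h2.symm H) hxy.hb (Or.inr (M.uniq (h2.symm H) hxy))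
        unfold Sg at h3
        rw [LL_eq h1] at h3
        exact h3) ha (Or.inl rfl) b hb
  exact h.of_mem hb hne (this.resolve_left hne)

theorem Mn.count (M : Mn p X a0 φ) (ha : a ∈ orb X a0) {Q : Sylow p G}
    (hQ : (Q : Subgroup G) ≤ YY p X a) :
    fx (Q : Subgroup G) (orb X a0) = φ * tt p (Q : Subgroup G) (orb X a0) + 1 := by
  have hQ' := le_YY.1 hQ
  rw [fx_erase ha hQ'.2, ← (dl_erase ((orb_inv a0).mono hQ'.1) ha hQ'.2).1]
  congr 1
  refine ratio_sum hQ φ _ (erase_inv.mono YY_le_St) fun y hy => ?_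
  have h := M.all ha (mem_erase.1 hy).2 (mem_erase.1 hy).1
  refine h.cs.ratio_orb self_LL y (fun Q' hQ'' => ?_) hQ
  rw [Fx_iff_le h.good, le_WW, ← and_assoc, ← le_YY]
  exact ⟨fun k => k.2, fun k => ⟨hQ'', k⟩⟩

theorem Mn.third (M : Mn p X a0 φ) (h : Cy p X a0 a b φ) :
    ∃ c ∈ orb X a0, c ≠ a ∧ c ≠ b ∧ WW p X a c = WW p X a b := by
  by_contra hcon
  push Not at hcon
  obtain ⟨Q, hQ⟩ := M.H.exQ' h.ha
  have hQ' := le_YY.1 hQ
  have h1 := card_le_card_of_injOn (WW p X a) (s := (orb X a0).erase a) (t := LL p X a b)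
    (fun y hy => by
      rw [mem_coe, mem_erase] at hy
      exact M.uniq h (M.all h.ha hy.2 hy.1))
    (by
      intro y hy z hz e
      rw [mem_coe, mem_erase] at hy hz
      obtain ⟨g, hg, e'⟩ := h.cs.tr _ (M.uniq h (M.all h.ha hy.2 hy.1)) _ self_LL
      have key : ∀ w, w ≠ a → w ∈ orb X a0 → g • WW p X a w = WW p X a b → g • w = b := by
        intro w h1 h2 h3
        by_contra h4
        refine hcon _ (orb_inv _ g (YY_le hg) _ h2) (fun k => h1 ?_) h4 ?_
        · exact MulAction.injective g (k.trans (Fx_YY g hg).symm)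
        · rw [← WW_smY (YY_le_St hg)]; exact h3
      exact MulAction.injective g ((key y hy.1 hy.2 e').trans (key z hz.1 hz.2 (e ▸ e')).symm))
  have h2 := card_erase_add_one h.ha
  have h3 := card_eq ((orb_inv a0).mono hQ'.1)
  have h4 := M.H.t2 Q hQ'.1
  rw [M.count h.ha hQ] at h3
  rw [h.cs.card] at h1
  have := hp.out.pos
  nlinarith

theorem Mn.le_one (M : Mn p X a0 φ) : φ ≤ 1 := by
  have H := M.H
  by_contra hφ
  obtain ⟨a, b, h⟩ := M.ex
  have h1 := h.erase self_LL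
  obtain ⟨U, hU⟩ : ((LL p X a b).erase (WW p X a b)).Nonempty :=
    card_pos.1 (by rw [h1.card]; have := hp.out.pos; omega)
  obtain ⟨g, hg, rfl⟩ := mem_LL.1 (mem_erase.1 hU).2
  have h2 : Cy p X a0 a (g • b) φ := by
    have := h.sm (YY_le hg); rwa [Fx_YY g hg] at this
  generalize g • b = c at *
  have hne := (mem_erase.1 hU).1
  have hcb : c ≠ b := fun e => hne (by rw [e])
  have h3 := M.all h.hb h2.hb hcb
  obtain ⟨d, hd, hdb, hdc, e⟩ := M.third h3
  have n1 : WW p X b c ≠ WW p X b a := fun k => hne (by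
    have := (h.symm H).line' H h2.hb h2.ne k
    exact this)
  have hda : d ≠ a := fun k => n1 (by rw [← e, k])
  have h4 := M.all h.ha hd hda
  have m4 := M.uniq h h4
  have n2 : WW p X a d ≠ WW p X a b := fun k => n1 (by rw [← e]; exact h.line' H hd hdb k)
  have hV : Op p (St (WW p X a b) (WW p X a c)) ≤ WW p X b c := by
    refine Op_le_iff.2 fun Q hQ => ?_
    rw [le_St, Fx_iff_le h2.good, le_WW, le_WW] at hQ
    exact le_WW.2 ⟨hQ.1.1, hQ.1.2.2, hQ.2.2.2⟩
  have e1 := h1.only (by omega) hU (mem_erase.2 ⟨n2, m4⟩) (by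
    intro k hk
    have k1 : k ∈ WW p X a b := (Op_le.trans St_le) hk
    have k2 := hV hk
    rw [← e] at k2
    rw [WW_sm (WW_le_X k1), Fx_WW' k k1, Fx_WW k k2])
  have e2 := h2.line' H hd hdc e1
  have e3 := h3.line' H hd hdc e
  exact hne ((h2.symm H).line' H h.hb h.ne (e3.symm.trans e2)).symm

theorem Mn.false (M : Mn p X a0 φ) : False := by
  have H := M.H
  obtain ⟨a, b, h⟩ := M.ex
  obtain rfl : φ = 1 := le_antisymm M.le_one h.pos
  obtain ⟨Q, hQ⟩ := H.exQ' h.ha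
  have hQ' := le_YY.1 hQ
  obtain ⟨c, hc, hm⟩ := H.good.moved H.nfx hQ'.1
  have hm' := hm
  unfold Fx at hm'
  push Not at hm'
  obtain ⟨z, hz, hzc⟩ := hm'
  have hzc' : z • c ∈ orb X a0 := orb_inv _ z (hQ'.1 hz) _ hc
  have h0 := M.all hc hzc' hzc
  have h1 := card_le_card_of_injOn (WW p X c) (s := (orb X a0).filter (Fx (Q : Subgroup G)))
    (t := (LL p X c (z • c)).erase (WW p X c (z • c)))
    (fun y hy => by
      rw [mem_coe, mem_filter] at hy
      have hyc : y ≠ c := fun e => hm (e ▸ hy.2)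
      have h2 := M.all hc hy.1 hyc
      refine mem_coe.2 (mem_erase.2 ⟨fun e => ?_, M.uniq h0 h2⟩)
      have hzy : z • c ≠ y := fun e' => hyc (MulAction.injective z ((hy.2 z hz).trans e'.symm))
      have e1 := h2.line' H hzc' hzy e.symm
      have e2 : z • WW p X y c = WW p X y c := by rw [WW_sm (hQ'.1 hz), hy.2 z hz, e1]
      obtain ⟨Q', hQ''⟩ := (h2.symm H).good.ex
      have e3 : Subgroup.zpowers z ≤ WW p X y c :=
        le_of_Fx hQ'' (Q.isPGroup'.to_le ((Subgroup.zpowers_le (G := G)).2 hz))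
          (le_St.1 ((Subgroup.zpowers_le (G := G)).2 (mem_St.2 ⟨Subgroup.mem_top z, e2⟩))).2
      exact hzc (Fx_WW z (e3 (Subgroup.mem_zpowers z))))
    (by
      intro y hy w hw e
      rw [mem_coe, mem_filter] at hy hw
      by_contra hne
      have hyc : y ≠ c := fun e => hm (e ▸ hy.2)
      have e1 := (M.all hc hy.1 hyc).line' H hw.1 (Ne.symm hne) e.symm
      exact hm (Fx_WW.mono (by rw [← e1]; exact le_WW.2 ⟨hQ'.1, hy.2, hw.2⟩)))
  have h2 := card_erase_add_one (self_LL (p := p) (X := X) (a := c) (b := z • c))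
  rw [h0.cs.card] at h2
  change fx _ _ ≤ _ at h1
  have h3 := M.count h.ha hQ
  have h4 := H.rpos h.ha hQ
  have h5 := H.bud Q hQ'.1
  have h6 := H.t2 Q hQ'.1
  have h7 : fx (Q : Subgroup G) (orb X a0) < p := by
    rcases Nat.lt_or_ge (fx (Q : Subgroup G) (orb X a0)) p with k | k
    · exact k
    · rw [show fx (Q : Subgroup G) (orb X a0) = p by omega, Nat.mod_self] at h4
      omega
  rw [Nat.mod_eq_of_lt h7] at h5
  unfold dl at h5
  have h8 : (2 : ℤ) ≤ tt p (Q : Subgroup G) (orb X a0) := by exact_mod_cast h6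
  have h9 : (2 : ℤ) ≤ p := by exact_mod_cast hp.out.two_le
  nlinarith

theorem Ctx.false (H : Ctx p X a0) : False := by
  have h : ∃ φ, ∃ a b, Cy p X a0 a b φ := by
    obtain ⟨b, φ, h⟩ := H.ex_cy
    exact ⟨φ, a0, b, h⟩
  exact Mn.false ⟨H, Nat.find_spec h, fun a b ψ k => Nat.find_min' h ⟨a, b, k⟩⟩

theorem hp_all (Z : Subgroup G) : HP p Z := by
  induction hn : Nat.card Z using Nat.strong_induction_on generalizing Z with
  | _ n ih =>
    intro V hZ hV hP Q hQ
    by_contra hcon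
    push Not at hcon
    have hQZ := hQ.trans St_le
    refine Ctx.false (X := Z) (a0 := V) ⟨hZ, hV, hP, fun W hW => ih _ (hn ▸ hW) W rfl, ⟨Q, hQ⟩,
      fun Q' hQ' => ?_, fun Q' hQ' => ?_⟩
    · obtain ⟨y, hy, hm⟩ := hZ.moved hV hQZ
      have h1 := tt_pos ((orb_inv V).mono hQZ) hy hm
      have h2 : tt p (Q' : Subgroup G) (orb Z V) = tt p (Q : Subgroup G) (orb Z V) := by
        unfold tt; rw [fx_eq (orb_inv V) hQ' hQZ]
      have := hcon.1
      omega
    · rw [dl_eq (orb_inv V) hQ' hQZ, fx_eq (orb_inv V) hQ' hQZ]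
      have := hcon.2
      omega

/-- the main bound: a Sylow subgroup fixes at most `t (p - 1)` points -/
theorem main {Z : Subgroup G} (hZ : Good p Z) {Q : Sylow p G} (hQ : (Q : Subgroup G) ≤ Z)
    (C : Finset Ω) (hC : Inv Z C) (hn : ∀ x ∈ C, ¬ Fx Z x) :
    fx (Q : Subgroup G) C ≤ tt p (Q : Subgroup G) C * (p - 1) := by
  have h := dl_nonneg hZ (hp_all Z) hQ C hC hn
  unfold dl at h
  have h1 := hp.out.one_lt.le
  zify [h1]
  linarith

end Cfsg.Agent.FPS
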